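import Cfsg.Agent.H249.Co3.Gn7
import Cfsg.Agent.H167.Co3.Conj7
import Cfsg.Agent.Nodes.RGDFoldSL

/-!
# S1920, case B, `E₇(q)`, THETA12: the involution `z`, the subgroup `SL₂(q)` of the highest root (helper249)

* `zz F` : `h_β(-1)`; `z7_mat : Z7 (zz F)`, `z7_mem`, `gen7` : generators of the centraliser;
* `io F : SL₂(F) →* E₇(F)`; `io_rel`, `io_neg`.
-/

set_option autoImplicit false
set_option linter.unusedSectionVars false
set_option maxRecDepth 100000

open QuadraticMap Module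

namespace Cfsg.Agent.H249.Co3

open Cfsg Cfsg.Lie Cfsg.Lie.ChevalleyDatum CoxeterSystem
open Cfsg.Agent.ChevalleyStructure Cfsg.Agent.ChevalleyStructure.Elts Cfsg.Agent.ChevalleyStructure.XColumns
open Cfsg.Agent.ChevalleyStructure.Columns (cor)
open Cfsg.Agent.ChevalleyStructure.CoxeterGeom Cfsg.Agent.ChevalleyStructure.CoxeterGeomTypes
open Cfsg.Agent.Tits.Roots Cfsg.Agent.Nodes Cfsg.Agent.Nodes.Reps Cfsg.Agent.Nodes.RGDChev Cfsg.Agent.Nodes.Bruhat
open Cfsg.Agent.KFacts.RgdField Cfsg.Agent.KFacts.RgdChevCoord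
open Cfsg.Agent.BpExc.TorAll Cfsg.Agent.BpExc.TorCent Cfsg.Agent.BpExc.TorChev Cfsg.Agent.BpExc.Tow
  Cfsg.Agent.BpExc.TowChev Cfsg.Agent.GpExc.Field
open Cfsg.Agent.OddHalf.NI.ModelChev Cfsg.Agent.H557.SignTorus
open Cfsg.Agent.Nodes.RGDFoldSL (psi psi_up psi_lo psi_hS hS coe_hS)
open Cfsg.Agent.ChevalleyStructure.SL2Hom (up lo mem_closure_SL2)
open Cfsg.Agent.H736.Co3
open Matrix

/-! ### the involution -/

section

variable (F : Type) [Field F]

/-- the involution `h_β(-1)` -/
noncomputable abbrev zz : ↥(chevE7.group F) := th Cfsg.Agent.Nodes.KindE.isType7 (sg F 7 84)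

theorem z7_mem : zz F ∈ T7s F := Cfsg.Agent.H557.Toral.th_mem _ _

theorem even_iff : ∀ s < 126, (Even (vec chevE7 7 s 0) ↔ cor chevE7 s 0 % 2 = 0) := by decide +kernel

variable {F}

theorem z7_mat [Finite F] (h2 : (2 : F) ≠ 0) : Z7 (zz F) := by
  obtain ⟨p, hpc⟩ := CharP.exists F
  have hpp : Fact p.Prime := ⟨(CharP.char_is_prime_or_zero F p).resolve_right (CharP.char_ne_zero_of_finite F p)⟩
  have hk := Cfsg.Agent.H167.Co3.locFin_finite F
  have ht : zz F ∈ TT chevE7 F := Cfsg.Agent.H557.Toral.th_mem _ _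
  have htt : zz F * zz F = 1 := by rw [← map_mul, sg_mul_self, map_one]
  have hp := Cfsg.Agent.Nodes.KindE.isType7
  unfold Z7
  rw [Cfsg.Agent.H892.El.coe_TT hp (r := p) hk ht]
  congr 1
  funext j
  rcases j with j | s
  · rfl
  · rw [Sum.elim_inr]
    show ch hp (vec chevE7 7 s) (zz F) = _
    have hroot : IsRoot (CoxeterMatrix.toCoxeterSystem _) hp.isCartan (vec chevE7 7 s) := isRoot_vec hp _ s.2
    have h1 := Cfsg.Agent.H167.Co3.ch_mul hp p hk ht ht hroot
    rw [htt] at h1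
    have h3 := Cfsg.Agent.H167.Co3.ch_mul hp p hk (one_mem (TT chevE7 F)) (one_mem (TT chevE7 F)) hroot
    rw [mul_one] at h3
    have h0 := ((coordsL (k := F) hp (CoxeterMatrix.toCoxeterSystem _) hk p).coord _ hroot).chi_ne_zero (one_mem (TT chevE7 F))
    have h4 : ch hp (vec chevE7 7 s) (1 : ↥(chevE7.group F)) = 1 := (mul_eq_left₀ h0).1 h3.symm
    rw [h4] at h1
    have h5 := ch_sg hp (CoxeterMatrix.toCoxeterSystem _) Cfsg.Agent.H557.Co3.CentE7.hcm7 hroot h2
      Cfsg.Agent.H557.Co3.CentE7.n0_E7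
    rw [even_iff s s.2] at h5
    by_cases h6 : cor chevE7 s.val 0 % 2 = 0
    · rw [if_pos h6]
      exact h5.2 h6
    · rw [if_neg h6]
      exact (mul_self_eq_one_iff.1 h1.symm).resolve_left fun h7 => h6 (h5.1 h7)

/-- **generators of the centraliser** -/
theorem gen7 [Finite F] (ho : Odd (Nat.card F)) (g : ↥(chevE7.group F)) (hg : g * zz F = zz F * g) :
    g ∈ Subgroup.closure (T7s F ∪ X7s F) := by
  have h := Cfsg.Agent.H557.Co3.CentE7.cent_E7 ho hg.symm
  unfold Cfsg.Agent.H557.Co3.CentE8.GC at h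
  refine Subgroup.closure_mono ?_ h
  rintro g (hg | ⟨r, a, hr, he, hg⟩)
  · exact Or.inl hg
  · exact Or.inr ⟨r, a, hr, (even_iff r hr).1 he, hg⟩

end

/-! ### the subgroup `SL₂` -/

section

universe u

variable (F : Type u) [Field F]

theorem neg125 : chevE7.neg 125 = 0 := by decide +kernel

theorem psi_mem7 (x : Matrix.SpecialLinearGroup (Fin 2) F) : psi inE7 F 125 x ∈ chevE7.group F := by
  have h : Subgroup.closure (Set.range (up (F := F)) ∪ Set.range (lo (F := F))) ≤ (chevE7.group F).comap (psi inE7 F 125) := by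
    rw [Subgroup.closure_le]
    rintro _ (⟨t, rfl⟩ | ⟨t, rfl⟩)
    · show psi inE7 F 125 (up t) ∈ chevE7.group F
      rw [psi_up inE7 (show 125 < chevE7.nroots by decide)]
      exact xG_mem_group inE7 _ t
    · show psi inE7 F 125 (lo t) ∈ chevE7.group F
      rw [psi_lo inE7 (show 125 < chevE7.nroots by decide)]
      exact xG_mem_group inE7 _ t
  exact h (mem_closure_SL2 x)

/-- the homomorphism -/
noncomputable def io : Matrix.SpecialLinearGroup (Fin 2) F →* ↥(chevE7.group F) :=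
  (psi inE7 F 125).codRestrict (chevE7.group F) (psi_mem7 F)

variable {F}

theorem coe_io (x : Matrix.SpecialLinearGroup (Fin 2) F) : ((io F x : ↥(chevE7.group F)) : GL chevE7.Idx F) = psi inE7 F 125 x := rfl

theorem up_eq (t : F) : ((up t : Matrix.SpecialLinearGroup (Fin 2) F) : Matrix (Fin 2) (Fin 2) F) = 1 + t • E2 F 125 := by
  rw [E2_125]
  show (!![1, t; 0, 1] : Matrix (Fin 2) (Fin 2) F) = _
  ext i j
  fin_cases i <;> fin_cases j <;> simp

theorem lo_eq (t : F) : ((lo t : Matrix.SpecialLinearGroup (Fin 2) F) : Matrix (Fin 2) (Fin 2) F) = 1 + t • E2 F 0 := by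
  rw [E2_0]
  show (!![1, 0; t, 1] : Matrix (Fin 2) (Fin 2) F) = _
  ext i j
  fin_cases i <;> fin_cases j <;> simp

theorem E6_zero {r : ℕ} (h : r = 125 ∨ r = 0) : E6 F r = 0 := by
  have hin : T6.In r = true := by
    rcases h with rfl | rfl
    · exact In_125
    · exact In_0
  rcases E6_cases (F := F) hin with ⟨-, h1⟩ | ⟨h1, h3, -⟩
  · exact h1
  · rcases h with h | h
    · exact absurd h h1
    · exact absurd h h3

theorem ev125 : cor chevE7 125 0 % 2 = 0 := by decide +kernel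

theorem ev0 : cor chevE7 0 0 % 2 = 0 := by decide +kernel

theorem io_rel (h2 : (2 : F) ≠ 0) {z : ↥(chevE7.group F)} (hz : Z7 z) (hzT : z ∈ T7s F)
    (x : Matrix.SpecialLinearGroup (Fin 2) F) : Rl7 z (io F x) x 1 := by
  have R := rd7 h2 hz
  have hx := mem_closure_SL2 x
  induction hx using Subgroup.closure_induction with
  | mem x hx =>
    rcases hx with ⟨t, rfl⟩ | ⟨t, rfl⟩
    · have hg : ((io F (up t) : ↥(chevE7.group F)) : GL chevE7.Idx F) = xG inE7 125 t := by
        rw [coe_io, psi_up inE7 (show 125 < chevE7.nroots by decide)]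
      have h := rl_root h2 (by norm_num) ev125 hg (cz_root hz hzT (by norm_num) ev125 hg)
      rw [E6_zero (Or.inl rfl), smul_zero, add_zero, ← up_eq] at h
      exact h
    · have hg : ((io F (lo t) : ↥(chevE7.group F)) : GL chevE7.Idx F) = xG inE7 0 t := by
        rw [coe_io, psi_lo inE7 (show 125 < chevE7.nroots by decide), neg125]
      have h := rl_root h2 (by norm_num) ev0 hg (cz_root hz hzT (by norm_num) ev0 hg)
      rw [E6_zero (Or.inr rfl), smul_zero, add_zero, ← lo_eq] at h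
      exact h
  | one =>
    rw [map_one, Matrix.SpecialLinearGroup.coe_one]
    exact R.one
  | mul x y _ _ h h' =>
    have h3 := R.mul h h'
    rw [mul_one] at h3
    rw [map_mul, Matrix.SpecialLinearGroup.coe_mul]
    exact h3
  | inv x _ h =>
    obtain ⟨a', M', h3, h4, h5⟩ := R.inv h
    have e1 : a' = ((x⁻¹ : Matrix.SpecialLinearGroup (Fin 2) F) : Matrix (Fin 2) (Fin 2) F) := by
      refine (left_inv_eq_right_inv (a := (x : Matrix (Fin 2) (Fin 2) F)) ?_ h4).symm
      rw [← Matrix.SpecialLinearGroup.coe_mul, inv_mul_cancel, Matrix.SpecialLinearGroup.coe_one]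
    rw [one_mul] at h5
    rw [e1, h5] at h3
    rw [map_inv]
    exact h3

theorem cartanR_one : Cfsg.Agent.ChevalleyStructure.Strings.cartanR chevE7 125 1 = 1 ∨
    Cfsg.Agent.ChevalleyStructure.Strings.cartanR chevE7 125 1 = -1 := by decide +kernel

theorem io_neg (h2 : (2 : F) ≠ 0) {z : ↥(chevE7.group F)} (hz : Z7 z) (hzT : z ∈ T7s F) : io F (-1) = z := by
  have R := rd7 h2 hz
  have h := R.scal (c := -1) (d := 1) (io_rel h2 hz hzT (-1)) (neg_ne_zero.2 one_ne_zero) one_ne_zero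
  rw [Matrix.SpecialLinearGroup.coe_neg, Matrix.SpecialLinearGroup.coe_one, smul_neg, neg_one_smul, neg_neg, one_smul] at h
  refine (R.ker h).resolve_left fun h1 => ?_
  have h3 : (hS (-1 : F)) = (-1 : Matrix.SpecialLinearGroup (Fin 2) F) := by
    apply Subtype.ext
    rw [coe_hS (neg_ne_zero.2 one_ne_zero)]
    ext a b
    fin_cases a <;> fin_cases b <;> simp
  have h4 := congrArg (fun g : ↥(chevE7.group F) => ((g : GL chevE7.Idx F) : Matrix chevE7.Idx chevE7.Idx F)) h1
  simp only [coe_io, Subgroup.coe_one, Units.val_one] at h4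
  rw [← h3, psi_hS inE7 (show 125 < chevE7.nroots by decide), coe_hG,
    Cfsg.Agent.ChevalleyStructure.StringMem.hMat_eq inE7 (show 125 < chevE7.nroots by decide) (neg_ne_zero.2 one_ne_zero)] at h4
  have h5 := congrFun (congrFun h4 (Sum.inr ⟨1, by decide⟩)) (Sum.inr ⟨1, by decide⟩)
  rw [Matrix.diagonal_apply_eq, Matrix.one_apply_eq, Sum.elim_inr] at h5
  have h6 : (-1 : F) = 1 := by
    rcases cartanR_one with h7 | h7
    · rw [h7, _root_.zpow_one] at h5; exact h5
    · rw [h7, _root_.zpow_neg, _root_.zpow_one, inv_neg, inv_one] at h5; exact h5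
  exact h2 (by linear_combination -h6)

end

end Cfsg.Agent.H249.Co3
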