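import Cfsg.Agent.H553.KKL.AdjDim

/-!
# S1920, case B, `E₇(q)`, THETA12: the elements acting trivially on `sl₂ + so₁₂` (helper249)

* `sep` : distinct weights of the adjoint module of `E₇` differ on a simple coroot (characteristic not 2);
* `ker7` : an element of `chevE7.group F` fixing all the root vectors of `A₁D₆` is diagonal, equal to 1 on `L₊` and to a
  scalar `ε`, `ε² = 1`, on `L₋`.
-/

set_option autoImplicit false
set_option linter.unusedSectionVars false
set_option maxRecDepth 100000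

namespace Cfsg.Agent.H249.Co3

open Cfsg Cfsg.Lie Cfsg.Lie.ChevalleyDatum
open Cfsg.Agent.ChevalleyStructure Cfsg.Agent.ChevalleyStructure.Elts
open Cfsg.Agent.ChevalleyStructure.LieAbs Cfsg.Agent.ChevalleyStructure.Ring Cfsg.Agent.ChevalleyStructure.JacMain
  Cfsg.Agent.ChevalleyStructure.LieAut Cfsg.Agent.ChevalleyStructure.JacAll Cfsg.Agent.ChevalleyStructure.Columns
open Cfsg.Agent.H167.EX Cfsg.Agent.H553.KKL Cfsg.Agent.H971.RV
open Matrix

universe u

/-! ### separation of the weights -/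

/-- the values of a root on the simple coroots modulo 3 -/
def code7 (s : ℕ) : ℕ := (List.range 7).foldl (fun a j => 3 * a + ((car chevE7 j s) % 3).toNat) 0

def codes7 : List ℕ := [1458, 891, 135, 531, 501, 491, 487, 261, 312, 302, 298, 195, 212, 208, 173, 178, 165, 1545, 1562, 1558, 1604, 1609, 1596, 1973, 1978, 1992, 1953, 1703, 1708, 1722, 1764, 1647, 810, 735, 752, 748, 794, 799, 786, 1406, 1411, 1425, 1386, 569, 574, 588, 630, 270, 1136, 1141, 1155, 1197, 837, 380, 385, 399, 360, 47, 52, 39, 17, 13, 4, 8, 26, 22, 78, 68, 64, 720, 690, 680, 676, 1674, 2070, 2040, 2030, 2026, 540, 450, 420, 410, 406, 1800, 1851, 1841, 1837, 1491, 1508, 1504, 1469, 1474, 1461, 1620, 864, 1260, 1230, 1220, 1216, 990, 1041, 1031, 1027, 924, 941, 937, 902, 907, 894, 87, 104, 100, 146, 151, 138, 515, 520, 534, 495, 245, 250, 264, 306, 189, 1539, 729]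

theorem codes7_eq : (List.range 126).map code7 = codes7 := by decide +kernel

theorem codes7_nodup : codes7.Nodup := by decide +kernel

theorem codes7_pos : ∀ c ∈ codes7, c ≠ 0 := by decide +kernel

theorem car7_le : ∀ j < 7, ∀ s < 126, -2 ≤ car chevE7 j s ∧ car chevE7 j s ≤ 2 := by decide +kernel

theorem foldl_congr' (f g : ℕ → ℕ) : ∀ (l : List ℕ) (_ : ∀ j ∈ l, f j = g j) (a : ℕ),
    l.foldl (fun a j => 3 * a + f j) a = l.foldl (fun a j => 3 * a + g j) a
  | [], _, _ => rfl
  | j :: l, h, a => by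
    rw [List.foldl_cons, List.foldl_cons, h j List.mem_cons_self]
    exact foldl_congr' f g l (fun i hi => h i (List.mem_cons_of_mem _ hi)) _

theorem code7_getElem {s : ℕ} (hs : s < 126) : codes7[s]? = some (code7 s) := by
  rw [← codes7_eq, List.getElem?_map, List.getElem?_range hs]
  rfl

theorem code7_inj {s u : ℕ} (hs : s < 126) (hu : u < 126) (h : code7 s = code7 u) : s = u := by
  have h1 := code7_getElem hs
  have h2 := code7_getElem hu
  rw [← h] at h2
  have hlt : ∀ {s : ℕ}, s < 126 → s < codes7.length := by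
    intro s hs
    by_contra hc
    have h3 := code7_getElem hs
    rw [List.getElem?_eq_none (not_lt.1 hc)] at h3
    simp at h3
  by_contra hne
  rcases lt_or_gt_of_ne hne with hl | hl
  · exact (List.nodup_iff_getElem?_ne_getElem?.1 codes7_nodup) s u hl (hlt hu) (by rw [h1, h2])
  · exact (List.nodup_iff_getElem?_ne_getElem?.1 codes7_nodup) u s hl (hlt hs) (by rw [h1, h2])

variable {F : Type u} [Field F]

/-- integers of absolute value at most four not divisible by three are nonzero in odd characteristic -/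
theorem cast_ne (h2 : (2 : F) ≠ 0) {d : ℤ} (h1 : -4 ≤ d) (h3 : d ≤ 4) (h : d % 3 ≠ 0) : (d : F) ≠ 0 := by
  have h4 : (4 : F) ≠ 0 := by
    have : (4 : F) = 2 * 2 := by norm_num
    rw [this]; exact mul_ne_zero h2 h2
  have h5 : d = -4 ∨ d = -2 ∨ d = -1 ∨ d = 1 ∨ d = 2 ∨ d = 4 := by omega
  rcases h5 with rfl | rfl | rfl | rfl | rfl | rfl
  · rw [Int.cast_neg]; exact neg_ne_zero.2 (by exact_mod_cast h4)
  · rw [Int.cast_neg]; exact neg_ne_zero.2 (by exact_mod_cast h2)
  · rw [Int.cast_neg]; exact neg_ne_zero.2 (by simp)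
  · simp
  · exact_mod_cast h2
  · exact_mod_cast h4

/-- **Separation**, two roots -/
theorem sep (h2 : (2 : F) ≠ 0) {s u : ℕ} (hs : s < 126) (hu : u < 126) (hsu : s ≠ u) :
    ∃ j < 7, ((car chevE7 j s : ℤ) : F) ≠ ((car chevE7 j u : ℤ) : F) := by
  by_contra hc
  push Not at hc
  apply hsu
  refine code7_inj hs hu ?_
  unfold code7
  refine foldl_congr' _ _ _ (fun j hj => ?_) 0
  have hj := List.mem_range.1 hj
  have h1 := hc j hj
  rw [← sub_eq_zero, ← Int.cast_sub] at h1
  have h3 : (car chevE7 j s - car chevE7 j u) % 3 = 0 := by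
    by_contra h
    have h4 := car7_le j hj s hs
    have h5 := car7_le j hj u hu
    exact cast_ne h2 (by omega) (by omega) h h1
  congr 1
  omega

/-- **Separation**, a root and zero -/
theorem sep0 (h2 : (2 : F) ≠ 0) {s : ℕ} (hs : s < 126) : ∃ j < 7, ((car chevE7 j s : ℤ) : F) ≠ 0 := by
  by_contra hc
  push Not at hc
  have h0 : code7 s ≠ 0 := codes7_pos _ (List.mem_of_getElem? (code7_getElem hs))
  apply h0
  have h1 : code7 s = (List.range 7).foldl (fun a _ => 3 * a + 0) 0 := by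
    unfold code7
    refine foldl_congr' _ (fun _ => 0) _ (fun j hj => ?_) 0
    have hj := List.mem_range.1 hj
    have h1 := hc j hj
    have h3 : (car chevE7 j s) % 3 = 0 := by
      by_contra h
      have h4 := car7_le j hj s hs
      exact cast_ne h2 (by omega) (by omega) h h1
    rw [h3]; rfl
  rw [h1]; decide

/-! ### the tree of the roots of `L₋` -/

/-- `(s, a, b)` : `b = s + a`, `s` a root of `A₁D₆`, `a, b` roots of `L₋` -/
def edges7 : List (ℕ × ℕ × ℕ) := [(73, 1, 2), (74, 1, 3), (75, 1, 4), (76, 1, 5), (77, 1, 6), (83, 1, 7), (84, 1, 8), (85, 1, 9), (86, 1, 10), (87, 1, 11), (88, 1, 12), (89, 1, 13), (90, 1, 14), (91, 1, 15), (92, 1, 16), (125, 1, 93), (87, 2, 17), (88, 2, 18), (89, 2, 19), (90, 2, 20), (91, 2, 21), (92, 2, 22), (125, 2, 94), (90, 3, 23), (91, 3, 24), (92, 3, 25), (125, 3, 95), (92, 4, 26), (125, 4, 96), (125, 5, 97), (125, 6, 98), (90, 7, 27), (91, 7, 28), (92, 7, 29), (125, 7, 99), (92, 8, 30), (125, 8, 100), (125, 9, 101), (125, 10,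 102), (92, 11, 31), (125, 11, 103), (125, 12, 104), (125, 13, 105), (125, 14, 106), (125, 15, 107), (125, 16, 108), (92, 17, 32), (125, 17, 109), (125, 18, 110), (125, 19, 111), (125, 20, 112), (125, 21, 113), (125, 22, 114), (125, 23, 115), (125, 24, 116), (125, 25, 117), (125, 26, 118), (125, 27, 119), (125, 28, 120), (125, 29, 121), (125, 30, 122), (125, 31, 123), (125, 32, 124)]

/-- the structure constant `N_{s,a}` read off the table at `b` -/
def nn7 (s a b : ℕ) : ℤ := ((chevE7.chainCoeff s a b).map fun km : ℕ × ℤ => if km.1 = 1 then km.2 else 0).sum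

theorem edges7_ok : ∀ e ∈ edges7, e.1 < 126 ∧ e.2.1 < 126 ∧ e.2.2 < 126 ∧ cor chevE7 e.1 0 % 2 = 0 ∧ e.2.1 ≠ e.1 ∧
    e.2.1 ≠ chevE7.neg e.1 ∧ (nn7 e.1 e.2.1 e.2.2 = 1 ∨ nn7 e.1 e.2.1 e.2.2 = -1) := by decide +kernel

/-- everything odd is reached from the root 1 -/
def reach7 : List (ℕ × ℕ × ℕ) → List ℕ → Bool
  | [], R => (List.range 126).all fun s => decide (cor chevE7 s 0 % 2 = 0) || R.contains s
  | e :: l, R => R.contains e.2.1 && reach7 l (e.2.2 :: R)

theorem reach7_ok : reach7 edges7 [1] = true := by decide +kernel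

theorem reach7_spec {P : ℕ → Prop} : ∀ (l : List (ℕ × ℕ × ℕ)) (R : List ℕ), (∀ e ∈ l, P e.2.1 → P e.2.2) →
    (∀ r ∈ R, P r) → reach7 l R = true → ∀ s < 126, cor chevE7 s 0 % 2 ≠ 0 → P s
  | [], R, _, hR, h, s, hs, hs' => by
    unfold reach7 at h
    rw [List.all_eq_true] at h
    have h1 := h s (List.mem_range.2 hs)
    rw [Bool.or_eq_true] at h1
    rcases h1 with h1 | h1
    · exact absurd (of_decide_eq_true h1) hs'
    · exact hR s (List.contains_iff_mem.1 h1)
  | e :: l, R, hl, hR, h, s, hs, hs' => by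
    unfold reach7 at h
    rw [Bool.and_eq_true] at h
    refine reach7_spec l (e.2.2 :: R) (fun e' he' => hl e' (List.mem_cons_of_mem _ he')) ?_ h.2 s hs hs'
    intro r hr
    rcases List.mem_cons.1 hr with rfl | hr
    · exact hl e List.mem_cons_self (hR _ (List.contains_iff_mem.1 h.1))
    · exact hR r hr

/-! ### the kernel -/

section Ker

variable {g : ↥(chevE7.group F)}

theorem rank7 : chevE7.rank = 7 := rfl
theorem nroots7 : chevE7.nroots = 126 := rfl

/-- a root vector is fixed: the matrix commutes with its adjoint matrix -/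
theorem comm_adR (j : chevE7.Idx) (h : ((g : GL chevE7.Idx F) : Matrix chevE7.Idx chevE7.Idx F) *ᵥ Pi.single j 1 = Pi.single j 1) :
    ((g : GL chevE7.Idx F) : Matrix chevE7.Idx chevE7.Idx F) * adR chevE7 F j =
      adR chevE7 F j * ((g : GL chevE7.Idx F) : Matrix chevE7.Idx chevE7.Idx F) := by
  have h1 := group_mul_adv chevE7 slacE7.inList F g.1 g.2 (Pi.single j 1)
  rwa [h, adv_single_one] at h1

theorem adR_inl7 (i : Fin chevE7.rank) :
    adR chevE7 F (Sum.inl i) = Matrix.diagonal (Sum.elim (fun _ => 0) fun s : Fin chevE7.nroots => ((car chevE7 i.val s.val : ℤ) : F)) := by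
  rw [adR_def, adA_inl, adH, Matrix.diagonal_map (map_zero _)]
  congr 1
  funext j
  rcases j with j | j <;> simp

theorem hv_neg (g : ↥(chevE7.group F)) {s : ℕ} (hs : s < 126) (h1 : rho chevE7 F g (ex chevE7 F s) = ex chevE7 F s)
    (h2 : rho chevE7 F g (ex chevE7 F (chevE7.neg s)) = ex chevE7 F (chevE7.neg s)) :
    rho chevE7 F g (hv chevE7 F s) = hv chevE7 F s := by
  rw [← br_neg slacE7 hs, rho_br slacE7.inList, h1, h2]

theorem tab7a : ∀ s < 126, cor chevE7 s 0 % 2 = 0 → chevE7.neg s < 126 ∧ cor chevE7 (chevE7.neg s) 0 % 2 = 0 := by decide +kernel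

theorem tab7b : ∀ i < 7, i ≠ 0 → chevE7.simple i < 126 ∧ cor chevE7 (chevE7.simple i) 0 % 2 = 0 := by decide +kernel

theorem tab7c : cor chevE7 125 0 = 2 := by decide +kernel

/-- the Cartan subalgebra is fixed -/
theorem cartan_fix (h2 : (2 : F) ≠ 0) (g : ↥(chevE7.group F))
    (hfix : ∀ s < 126, cor chevE7 s 0 % 2 = 0 → rho chevE7 F g (ex chevE7 F s) = ex chevE7 F s) (i : Fin chevE7.rank) :
    rho chevE7 F g (Pi.single (Sum.inl i) 1) = Pi.single (Sum.inl i) 1 := by
  have hhv : ∀ s < 126, cor chevE7 s 0 % 2 = 0 → rho chevE7 F g (hv chevE7 F s) = hv chevE7 F s := fun s hs h =>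
    hv_neg g hs (hfix s hs h) (hfix _ (tab7a s hs h).1 (tab7a s hs h).2)
  have h0 : ∀ i : Fin chevE7.rank, i.val ≠ 0 → rho chevE7 F g (Pi.single (Sum.inl i) 1) = Pi.single (Sum.inl i) 1 := by
    intro i hi
    rw [← hv_simple slacE7]
    exact hhv _ (tab7b i i.2 hi).1 (tab7b i i.2 hi).2
  by_cases hi : i.val = 0
  · have hexp : hv chevE7 F 125 = ∑ j : Fin chevE7.rank, ((cor chevE7 125 j.val : ℤ) : F) • (Pi.single (Sum.inl j) 1 : chevE7.Idx → F) := by
      funext k
      rw [Finset.sum_apply]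
      rcases k with k | k
      · rw [Finset.sum_eq_single k]
        · rw [Pi.smul_apply, Pi.single_eq_same, smul_eq_mul, mul_one]; rfl
        · intro j _ hj
          rw [Pi.smul_apply, Pi.single_eq_of_ne, smul_zero]
          exact fun h => hj (Sum.inl_injective h).symm
        · intro h; exact absurd (Finset.mem_univ _) h
      · rw [Finset.sum_eq_zero]
        · rfl
        · intro j _
          rw [Pi.smul_apply, Pi.single_eq_of_ne (by simp), smul_zero]
    have h1 := hhv 125 (by norm_num) (by rw [tab7c]; rfl)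
    rw [hexp, ← Finset.add_sum_erase _ _ (Finset.mem_univ i), map_add, map_sum, map_smul, hi, tab7c] at h1
    have h3 : ∑ x ∈ Finset.univ.erase i, rho chevE7 F g (((cor chevE7 125 x.val : ℤ) : F) • (Pi.single (Sum.inl x) 1 : chevE7.Idx → F)) =
        ∑ x ∈ Finset.univ.erase i, ((cor chevE7 125 x.val : ℤ) : F) • (Pi.single (Sum.inl x) 1 : chevE7.Idx → F) := by
      refine Finset.sum_congr rfl fun x hx => ?_
      rw [map_smul, h0 x]
      intro hx0
      exact (Finset.mem_erase.1 hx).1 (Fin.ext (by rw [hx0, hi]))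
    rw [h3, add_left_inj, Int.cast_ofNat] at h1
    have h4 := congrArg (fun x => (2 : F)⁻¹ • x) h1
    simp only [smul_smul, inv_mul_cancel₀ h2, one_smul] at h4
    exact h4
  · exact h0 i hi

theorem ex_eq {s : ℕ} (hs : s < 126) : ex chevE7 F s = Pi.single (Sum.inr ⟨s, hs⟩) 1 := (ev_eq (D := chevE7) hs).symm

theorem rho_eq_mulVec (g : ↥(chevE7.group F)) (v : chevE7.Idx → F) :
    rho chevE7 F g v = ((g : GL chevE7.Idx F) : Matrix chevE7.Idx chevE7.Idx F) *ᵥ v := by
  rw [rho_eq, Matrix.toLin'_apply]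

/-- **An element fixing `L₊` is `1` on `L₊` and a scalar `ε`, `ε² = 1`, on `L₋`.** -/
theorem ker7 (h2 : (2 : F) ≠ 0) (g : ↥(chevE7.group F))
    (hfix : ∀ s < 126, cor chevE7 s 0 % 2 = 0 → rho chevE7 F g (ex chevE7 F s) = ex chevE7 F s) :
    ∃ ε : F, ε * ε = 1 ∧ ((g : GL chevE7.Idx F) : Matrix chevE7.Idx chevE7.Idx F) =
      Matrix.diagonal (Sum.elim (fun _ => 1) fun s : Fin chevE7.nroots => if cor chevE7 s.val 0 % 2 = 0 then 1 else ε) := by
  set C := ((g : GL chevE7.Idx F) : Matrix chevE7.Idx chevE7.Idx F) with hC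
  have hcart := cartan_fix h2 g hfix
  -- commutation with the adjoint matrices
  have hI : ∀ i : Fin chevE7.rank, C * adR chevE7 F (Sum.inl i) = adR chevE7 F (Sum.inl i) * C := fun i =>
    comm_adR _ (by rw [← rho_eq_mulVec]; exact hcart i)
  have hE : ∀ s (hs : s < 126), cor chevE7 s 0 % 2 = 0 →
      C * adR chevE7 F (Sum.inr ⟨s, hs⟩) = adR chevE7 F (Sum.inr ⟨s, hs⟩) * C := fun s hs h =>
    comm_adR _ (by rw [← rho_eq_mulVec, ← ex_eq hs]; exact hfix s hs h)
  -- the matrix is diagonal on the root vectors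
  have hent : ∀ (j k : chevE7.Idx) (i : Fin chevE7.rank),
      (Sum.elim (fun _ => (0 : F)) (fun s : Fin chevE7.nroots => ((car chevE7 i.val s.val : ℤ) : F)) j) ≠
      (Sum.elim (fun _ => (0 : F)) (fun s : Fin chevE7.nroots => ((car chevE7 i.val s.val : ℤ) : F)) k) → C j k = 0 := by
    intro j k i hne
    have h1 := congrFun (congrFun (hI i) j) k
    rw [adR_inl7, Matrix.mul_diagonal, Matrix.diagonal_mul] at h1
    by_contra h
    exact hne (mul_right_cancel₀ h (by rw [← h1, mul_comm]))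
  have hll : ∀ (j : chevE7.Idx) (i : Fin chevE7.rank), C j (Sum.inl i) = if j = Sum.inl i then 1 else 0 := by
    intro j i
    have h1 := congrFun (hcart i) j
    rw [rho_eq_mulVec, Matrix.mulVec_single_one] at h1
    rw [← Pi.single_apply]
    exact h1
  have hrr : ∀ (j : chevE7.Idx) (s : Fin chevE7.nroots), j ≠ Sum.inr s → C j (Sum.inr s) = 0 := by
    intro j s hj
    rcases j with j | u
    · obtain ⟨i, hi, h⟩ := sep0 h2 s.2
      exact hent _ _ ⟨i, hi⟩ (by simpa using h.symm)
    · obtain ⟨i, hi, h⟩ := sep h2 u.2 s.2 (fun h => hj (by rw [Fin.ext h]))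
      exact hent _ _ ⟨i, hi⟩ (by simpa using h)
  set c : ℕ → F := fun s => if hs : s < 126 then C (Sum.inr ⟨s, hs⟩) (Sum.inr ⟨s, hs⟩) else 0 with hc
  have hdiag : C = Matrix.diagonal (Sum.elim (fun _ => 1) fun s : Fin chevE7.nroots => c s.val) := by
    ext j k
    rcases k with k | k
    · rw [hll, Matrix.diagonal_apply]
      by_cases h : j = Sum.inl k
      · subst h; simp
      · rw [if_neg h, if_neg h]
    · by_cases h : j = Sum.inr k
      · subst h
        rw [Matrix.diagonal_apply_eq, Sum.elim_inr]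
        exact (dif_pos (c := k.val < 126) (t := fun hs => C (Sum.inr ⟨k.val, hs⟩) (Sum.inr ⟨k.val, hs⟩)) (e := fun _ => 0) k.2).symm
      · rw [hrr j k h, Matrix.diagonal_apply_ne _ h]
  have hact : ∀ s < 126, rho chevE7 F g (ex chevE7 F s) = c s • ex chevE7 F s := by
    intro s hs
    rw [rho_eq_mulVec, ← hC, hdiag, ex_eq hs, Matrix.diagonal_mulVec_single, mul_one]
    rw [← Pi.single_smul, smul_eq_mul, mul_one]; rfl
  -- constant on the odd roots
  have hstep : ∀ e ∈ edges7, c e.2.1 = c 1 → c e.2.2 = c 1 := by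
    intro e he h
    obtain ⟨q1, q2, q3, q4, q5, q6, q7⟩ := edges7_ok e he
    have h1 := congrFun (congrFun (hE e.1 q1 q4) (Sum.inr ⟨e.2.2, q3⟩)) (Sum.inr ⟨e.2.1, q2⟩)
    rw [hdiag, Matrix.mul_diagonal, Matrix.diagonal_mul, Sum.elim_inr, Sum.elim_inr] at h1
    have h3 : adR chevE7 F (Sum.inr ⟨e.1, q1⟩) (Sum.inr ⟨e.2.2, q3⟩) (Sum.inr ⟨e.2.1, q2⟩) = ((nn7 e.1 e.2.1 e.2.2 : ℤ) : F) := by
      rw [adR_def, Matrix.map_apply, adA_inr, coefE_entry chevE7 e.1 1 q1]
      simp only
      have q6' : e.2.1 ≠ chevE7.negIdx.getD e.1 0 := q6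
      rw [if_neg q5, if_neg q6']
      simp [nn7]
    rw [h3] at h1
    have h4 : ((nn7 e.1 e.2.1 e.2.2 : ℤ) : F) ≠ 0 := by
      rcases q7 with h | h <;> rw [h] <;> simp
    have h5 : c e.2.2 = c e.2.1 := mul_right_cancel₀ h4 (by rw [h1, mul_comm])
    rw [h5, h]
  have hodd : ∀ s < 126, cor chevE7 s 0 % 2 ≠ 0 → c s = c 1 :=
    reach7_spec edges7 [1] hstep (by simp) reach7_ok
  refine ⟨c 1, ?_, ?_⟩
  · have h1 : rho chevE7 F g (hv chevE7 F 1) = hv chevE7 F 1 := by
      rw [rho_eq_mulVec, ← hC, hdiag]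
      funext j
      rw [Matrix.mulVec_diagonal]
      rcases j with j | j
      · rw [Sum.elim_inl, one_mul]
      · exact mul_zero _
    have h3 : rho chevE7 F g (hv chevE7 F 1) = (c 1 * c 1) • hv chevE7 F 1 := by
      have h4 : chevE7.neg 1 = 124 := by decide +kernel
      have h5 : c 124 = c 1 := hodd 124 (by norm_num) (by decide +kernel)
      rw [← br_neg slacE7 (show 1 < chevE7.nroots by decide), rho_br slacE7.inList, hact 1 (by norm_num), h4,
        hact 124 (by norm_num), h5, br_smul_left, br_smul_right, smul_smul]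
    rw [h1] at h3
    have h4 := congrFun h3 (Sum.inl ⟨0, by decide⟩)
    have h5 : cor chevE7 1 0 = -1 := by decide +kernel
    have h6 : hv chevE7 F 1 (Sum.inl ⟨0, by decide⟩) = -1 := by
      show ((cor chevE7 1 0 : ℤ) : F) = -1
      rw [h5]; simp
    rw [Pi.smul_apply, h6, smul_eq_mul] at h4
    linear_combination h4
  · rw [hdiag]
    congr 2
    funext s
    by_cases h : cor chevE7 s.val 0 % 2 = 0
    · rw [if_pos h]
      have h1 := hact s.val s.2
      rw [hfix s.val s.2 h] at h1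
      have h3 := congrFun h1 (Sum.inr s)
      simpa [ex] using h3.symm
    · rw [if_neg h]
      exact hodd s.val s.2 h

end Ker

end Cfsg.Agent.H249.Co3
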