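import Cfsg.Agent.H627.Co3.E7I
import Cfsg.Agent.H887.SiegelMethod
import Cfsg.Agent.LieClassical.OrthForms
import Cfsg.Agent.LieClassical.OrthFinite
import Cfsg.Agent.ClassicalGeometry.OmegaIndex

/-!
# S1920, case B, `E₇(q)`, THETA12: the group `Ω₁₂⁺(F)` (helper249)

`F` finite of odd characteristic, `Q = plusForm 6 F`, `B` its polar form.

* `gen_le` : a subgroup of `GL(V)` containing the root elements of the standard frame contains `E Q` (all `m ≥ 3`);
* `mem_E_iff` : `E Q` is the joint kernel of the determinant and of the spinor sign (all `m ≥ 3`);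
* `signs` : the sign changes on an orthogonal basis which lie in `E Q`.
-/

set_option autoImplicit false
set_option linter.unusedSectionVars false

open QuadraticMap Module
open Cfsg.Agent.LieClassical.OrthCore Cfsg.Agent.LieClassical.OrthTrans Cfsg.Agent.LieClassical.OrthForms
  Cfsg.Agent.ClassicalGeometry.OrthAutBasic
  Cfsg.Agent.LieClassical.OrthFinite Cfsg.Agent.H887.SiegelMethod
  Cfsg.Agent.ClassicalGeometry.OmegaIndex Cfsg.Agent.ClassicalGeometry.SpinorSign
  Cfsg.Agent.ClassicalGeometry.Reflection Cfsg.Agent.ClassicalGeometry.Universal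

namespace Cfsg.Agent.H249.Co3

section Gen

variable {m : ℕ} {F : Type*} [Field F]

/-- the basis vectors -/
def ee (F : Type*) [Field F] {m : ℕ} (a : Fin m ⊕ Fin m) : Fin m ⊕ Fin m → F := Pi.single a 1

theorem polar_ee (a : Fin m ⊕ Fin m) (v : Fin m ⊕ Fin m → F) : polar (plusForm m F) (ee F a) v = v a.swap := by
  rw [polar_plusForm]
  rcases a with a | a
  · simp only [ee, Sum.swap_inl]
    rw [Finset.sum_eq_single a]
    · simp
    · intro b _ hb
      simp [hb]
    · intro h
      exact absurd (Finset.mem_univ a) h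
  · simp only [ee, Sum.swap_inr]
    rw [Finset.sum_eq_single a]
    · simp
    · intro b _ hb
      simp [hb]
    · intro h
      exact absurd (Finset.mem_univ a) h

theorem Q_ee (a : Fin m ⊕ Fin m) : plusForm m F (ee F a) = 0 := by
  rw [coe_plusForm, quadFormPlus_apply]
  refine Finset.sum_eq_zero fun i _ => ?_
  rcases a with a | a <;> simp [ee]

theorem ne_swap (a : Fin m ⊕ Fin m) : a ≠ a.swap := by
  rcases a with a | a <;> simp

theorem ee_self (a : Fin m ⊕ Fin m) : ee F a a = 1 := Pi.single_eq_same _ _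

theorem ee_ne {a b : Fin m ⊕ Fin m} (h : b ≠ a) : ee F a b = 0 := Pi.single_eq_of_ne h _

/-- a vector is the sum of its coordinates -/
theorem eq_sum_ee (v : Fin m ⊕ Fin m → F) : v = ∑ a, v a • ee F a := by
  funext i
  rw [Finset.sum_apply, Finset.sum_eq_single i]
  · rw [Pi.smul_apply, ee_self, smul_eq_mul, mul_one]
  · intro b _ hb
    rw [Pi.smul_apply, ee_ne (Ne.symm hb), smul_zero]
  · intro h
    exact absurd (Finset.mem_univ i) h

/-- the root element: `v ↦ v + t v(a*) e_b - t v(b*) e_a` -/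
theorem T_root {a b : Fin m ⊕ Fin m} (h : b ≠ a.swap) (t : F) (v : Fin m ⊕ Fin m → F) :
    T (plusForm m F) (ee F a) (t • ee F b) v = v + (t * v a.swap) • ee F b - (t * v b.swap) • ee F a := by
  have h1 : polar (plusForm m F) (ee F a) (t • ee F b) = 0 := by
    rw [polar_smul_right, polar_ee, ee_ne (Ne.symm h), smul_zero]
  rw [T_apply (Q_ee a) h1, QuadraticMap.map_smul, Q_ee, smul_zero, zero_mul, zero_smul, sub_zero, polar_smul_left, polar_ee,
    polar_ee, smul_smul, smul_eq_mul, mul_comm (v a.swap) t]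

/-- **Generation**: a group containing all the root elements of the standard frame contains `E Q`. -/
theorem gen_le [Finite F] (hm : 3 ≤ m) (H : Subgroup ((Fin m ⊕ Fin m → F) ≃ₗ[F] (Fin m ⊕ Fin m → F)))
    (h : ∀ a b : Fin m ⊕ Fin m, b ≠ a → b ≠ a.swap → ∀ t : F, T (plusForm m F) (ee F a) (t • ee F b) ∈ H) :
    E (plusForm m F) ≤ H := by
  have hG : Good (plusForm m F) := good_of_finite (nondeg_plusForm m F) (by
    rw [Module.finrank_fintype_fun_eq_card, Fintype.card_sum, Fintype.card_fin]; omega)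
  have key : ∀ a : Fin m ⊕ Fin m, ∀ x, polar (plusForm m F) (ee F a) x = 0 → x ∈ Ts (plusForm m F) H (ee F a) := by
    intro a x hx
    rw [eq_sum_ee x]
    refine Submodule.sum_mem _ fun b _ => ?_
    by_cases h1 : b = a
    · subst h1
      exact Submodule.smul_mem _ _ (self_mem_Ts (Q_ee b))
    by_cases h2 : b = a.swap
    · subst h2
      rw [polar_ee] at hx
      rw [hx, zero_smul]
      exact Submodule.zero_mem _
    refine Submodule.smul_mem _ _ ⟨by rw [polar_ee, ee_ne (Ne.symm h2)], fun c => h a b h1 h2 c⟩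
  have i0 : Fin m := ⟨0, by omega⟩
  refine E_le_of_Ts hG (Q_ee (Sum.inl i0)) (Q_ee (Sum.inr i0)) ?_ (key _) (key _)
  rw [polar_ee, Sum.swap_inl, ee_self]
  exact one_ne_zero

/-- the coordinate root matrix: `1 + t (E_{l k} - E_{k* l*})` -/
def rt (k l : Fin m ⊕ Fin m) (t : F) : Matrix (Fin m ⊕ Fin m) (Fin m ⊕ Fin m) F :=
  1 + t • (Matrix.single l k 1 - Matrix.single k.swap l.swap 1)

theorem rt_mulVec {k l : Fin m ⊕ Fin m} (t : F) (v : Fin m ⊕ Fin m → F) :
    (rt k l t).mulVec v = v + (t * v k) • ee F l - (t * v l.swap) • ee F k.swap := by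
  rw [rt, Matrix.add_mulVec, Matrix.one_mulVec, Matrix.smul_mulVec, Matrix.sub_mulVec, Matrix.single_mulVec,
    Matrix.single_mulVec]
  funext i
  simp only [Pi.add_apply, Pi.sub_apply, Pi.smul_apply, smul_eq_mul, ee, Function.update_apply, Pi.single_apply, Pi.zero_apply]
  split_ifs <;> ring

theorem T_eq_rt {k l : Fin m ⊕ Fin m} (h : l ≠ k) (t : F) (v : Fin m ⊕ Fin m → F) :
    T (plusForm m F) (ee F k.swap) (t • ee F l) v = (rt k l t).mulVec v := by
  rw [T_root (by rwa [Sum.swap_swap]), rt_mulVec, Sum.swap_swap]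

/-- the coordinate root matrices generate `E Q` -/
theorem E_le_map [Finite F] (hm : 3 ≤ m) :
    E (plusForm m F) ≤ (Subgroup.closure {g : Matrix.GeneralLinearGroup (Fin m ⊕ Fin m) F |
        ∃ (k l : Fin m ⊕ Fin m) (t : F), l ≠ k ∧ l ≠ k.swap ∧
          (g : Matrix (Fin m ⊕ Fin m) (Fin m ⊕ Fin m) F) = rt k l t}).map (glEquiv (Fin m ⊕ Fin m) F).toMonoidHom := by
  refine gen_le hm _ fun a b h1 h2 t => ?_
  refine ⟨(glEquiv _ F).symm (T (plusForm m F) (ee F a) (t • ee F b)), Subgroup.subset_closure ⟨a.swap, b, t, h2, ?_, ?_⟩,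
    (glEquiv _ F).apply_symm_apply _⟩
  · rw [Sum.swap_swap]; exact h1
  · apply Matrix.mulVec_injective
    funext v
    rw [← glEquiv_apply, MulEquiv.apply_symm_apply, ← T_eq_rt h2, Sum.swap_swap]

theorem omega_le_aux [Finite F] (hm : 3 ≤ m) :
    (Cfsg.Omega F (⇑(plusForm m F))).map (Cfsg.isometryGroup F (⇑(plusForm m F))).subtype ≤
      Subgroup.closure {g : Matrix.GeneralLinearGroup (Fin m ⊕ Fin m) F |
        ∃ (k l : Fin m ⊕ Fin m) (t : F), l ≠ k ∧ l ≠ k.swap ∧
          (g : Matrix (Fin m ⊕ Fin m) (Fin m ⊕ Fin m) F) = rt k l t} := by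
  have hG : Good (plusForm m F) := good_of_finite (nondeg_plusForm m F) (by
    rw [Module.finrank_fintype_fun_eq_card, Fintype.card_sum, Fintype.card_fin]; omega)
  rintro _ ⟨g, hg, rfl⟩
  have h3 : isometryHom (plusForm m F) g ∈ E (plusForm m F) := by
    rw [← hG.commutator_eq_E, ← map_Omega]
    exact ⟨g, hg, rfl⟩
  obtain ⟨x, hx, e⟩ := E_le_map hm h3
  have : x = (Cfsg.isometryGroup F (⇑(plusForm m F))).subtype g := (glEquiv _ F).injective e
  rwa [← this]

/-- **The commutator subgroup of the orthogonal group is generated by the coordinate root matrices.** -/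
theorem omega_le [Finite F] (hm : 3 ≤ m) :
    (Cfsg.Omega F (Cfsg.quadFormPlus m F)).map (Cfsg.isometryGroup F (Cfsg.quadFormPlus m F)).subtype ≤
      Subgroup.closure {g : Matrix.GeneralLinearGroup (Fin m ⊕ Fin m) F |
        ∃ (k l : Fin m ⊕ Fin m) (t : F), l ≠ k ∧ l ≠ k.swap ∧
          (g : Matrix (Fin m ⊕ Fin m) (Fin m ⊕ Fin m) F) = rt k l t} := by
  have h := omega_le_aux (F := F) hm
  rw [coe_plusForm] at h
  exact h

end Gen


section Sp

variable {ι : Type} [Fintype ι] [DecidableEq ι] {F : Type*} [Field F] [Finite F] {Q : QuadraticForm F (ι → F)}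

/-- **Membership in `E Q`.** -/
theorem mem_E_iff (h2 : (2 : F) ≠ 0) (hG : Good Q) (hQ : (polarBilin Q).Nondegenerate) (hn : 2 ≤ Fintype.card ι)
    (g : Cfsg.isometryGroup F ⇑Q) :
    isometryHom Q g ∈ E Q ↔
      ((g : Matrix.GeneralLinearGroup ι F) : Matrix ι ι F).det = 1 ∧ spinorSign (⇑Q) 1 g = 1 := by
  rw [← mem_Omega_iff h2 Q hQ hn one_ne_zero, ← hG.commutator_eq_E, ← map_Omega]
  constructor
  · rintro ⟨x, hx, e⟩
    rwa [← isometryHom_injective Q e]
  · intro h
    exact ⟨g, h, rfl⟩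

/-- a product of nonzero elements of a finite field is a square iff the number of nonsquares is even -/
theorem isSquare_prod_iff (h2 : (2 : F) ≠ 0) {κ : Type*} (a : κ → F) (ha : ∀ j, a j ≠ 0) (J : Finset κ)
    [DecidablePred fun j => ¬ IsSquare (a j)] :
    IsSquare (∏ j ∈ J, a j) ↔ Even (J.filter fun j => ¬ IsSquare (a j)).card := by
  classical
  induction J using Finset.induction_on with
  | empty => simp
  | insert b J hb ih =>
    rw [Finset.prod_insert hb, isSquare_mul_iff h2 (ha b) (Finset.prod_ne_zero_iff.2 fun j _ => ha j), ih,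
      Finset.filter_insert]
    by_cases h : IsSquare (a b)
    · rw [if_neg (not_not.2 h)]
      tauto
    · rw [if_pos h, Finset.card_insert_of_notMem (fun h' => hb (Finset.mem_of_mem_filter b h')), Nat.even_add_one]
      tauto

open Classical in
/-- the sign changes on an orthogonal basis -/
theorem exists_sgn (h2 : (2 : F) ≠ 0) {κ : Type*} (v : κ → ι → F)
    (hv : ∀ i j, i ≠ j → polar Q (v i) (v j) = 0) (hv0 : ∀ j, Q (v j) ≠ 0) (J : Finset κ) :
    ∃ g : Cfsg.isometryGroup F ⇑Q,
      (∀ i, ((g : Matrix.GeneralLinearGroup ι F) : Matrix ι ι F).mulVec (v i) = if i ∈ J then - v i else v i) ∧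
      ((g : Matrix.GeneralLinearGroup ι F) : Matrix ι ι F).det = (-1) ^ J.card ∧
      spinorSign (⇑Q) 1 g = (-1) ^ (J.filter fun j => IsSquare (Q (v j))).card := by
  induction J using Finset.induction_on with
  | empty =>
    refine ⟨1, fun i => ?_, ?_, ?_⟩
    · simp
    · simp
    · simp
  | insert b J hb ih =>
    obtain ⟨g, h1, h3, h4⟩ := ih
    refine ⟨reflIso Q (v b) (hv0 b) * g, fun i => ?_, ?_, ?_⟩
    · rw [coe_mul_mulVec, coe_reflIso, h1]
      by_cases hib : i = b
      · subst hib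
        rw [if_neg hb, if_pos (Finset.mem_insert_self _ _), reflectionMatrix_mulVec_self Q _ (hv0 i)]
      · have e : (Cfsg.reflectionMatrix (⇑Q) (v b)).mulVec (v i) = v i :=
          reflectionMatrix_mulVec_of_polar_eq_zero Q _ _ (hv b i (Ne.symm hib))
        by_cases hiJ : i ∈ J
        · rw [if_pos hiJ, if_pos (Finset.mem_insert_of_mem hiJ), Matrix.mulVec_neg, e]
        · rw [if_neg hiJ, if_neg (by rw [Finset.mem_insert]; tauto), e]
    · rw [Subgroup.coe_mul, Units.val_mul, Matrix.det_mul, h3, coe_reflIso, det_reflectionMatrix Q _ (hv0 b),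
        Finset.card_insert_of_notMem hb, pow_succ']
    · rw [map_mul, h4, spinorSign_reflIso h2 Q one_ne_zero (v b) (hv0 b), one_mul, Finset.filter_insert]
      by_cases h : IsSquare (Q (v b))
      · rw [if_pos h, if_pos h, Finset.card_insert_of_notMem (fun h' => hb (Finset.mem_of_mem_filter b h')), pow_succ']
      · rw [if_neg h, if_neg h, one_mul]

/-- **Sign changes in `Ω`.** -/
theorem sgn_mem_iff (h2 : (2 : F) ≠ 0) (hG : Good Q) (hQ : (polarBilin Q).Nondegenerate) (hn : 2 ≤ Fintype.card ι)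
    {κ : Type*} [Fintype κ] (v : Basis κ F (ι → F)) (hv : ∀ i j, i ≠ j → polar Q (v i) (v j) = 0) (hv0 : ∀ j, Q (v j) ≠ 0)
    (J : Finset κ) {g : (ι → F) ≃ₗ[F] (ι → F)} (hg : ∀ i, (i ∈ J → g (v i) = - v i) ∧ (i ∉ J → g (v i) = v i)) :
    g ∈ E Q ↔ Even J.card ∧ IsSquare (∏ j ∈ J, polar Q (v j) (v j)) := by
  classical
  obtain ⟨g', h1, h3, h4⟩ := exists_sgn h2 v hv hv0 J
  have e : g = isometryHom Q g' := by
    apply LinearEquiv.toLinearMap_injective
    refine v.ext fun i => ?_
    rw [LinearEquiv.coe_coe, LinearEquiv.coe_coe, isometryHom_apply, h1]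
    by_cases h : i ∈ J
    · rw [if_pos h, (hg i).1 h]
    · rw [if_neg h, (hg i).2 h]
  rw [e, mem_E_iff h2 hG hQ hn, h3, h4]
  have hne : (-1 : F) ≠ 1 := fun h => h2 (by linear_combination -h)
  have e1 : ((-1 : F) ^ J.card = 1) ↔ Even J.card := by
    rcases Nat.even_or_odd J.card with h | h
    · rw [h.neg_one_pow]; tauto
    · rw [h.neg_one_pow]
      have := Nat.not_even_iff_odd.2 h
      tauto
  have e2 : ∀ n : ℕ, ((-1 : ℤˣ) ^ n = 1) ↔ Even n := by
    intro n
    rcases Nat.even_or_odd n with h | h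
    · rw [h.neg_one_pow]; tauto
    · rw [h.neg_one_pow]
      have := Nat.not_even_iff_odd.2 h
      have h5 : (-1 : ℤˣ) ≠ 1 := by decide
      tauto
  rw [e1, e2]
  refine and_congr_right fun hJ => ?_
  have h0 : ∀ j, polar Q (v j) (v j) ≠ 0 := fun j => by
    rw [Cfsg.Agent.LieClassical.OrthCore.polar_self']; exact mul_ne_zero h2 (hv0 j)
  have e3 : (∏ j ∈ J, polar Q (v j) (v j)) = 2 ^ J.card * ∏ j ∈ J, Q (v j) := by
    rw [← Finset.prod_const, ← Finset.prod_mul_distrib]
    exact Finset.prod_congr rfl fun j _ => Cfsg.Agent.LieClassical.OrthCore.polar_self' _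
  have e4 : IsSquare ((2 : F) ^ J.card) := by
    obtain ⟨k, hk⟩ := hJ
    exact ⟨2 ^ k, by rw [hk, pow_add]⟩
  rw [e3, isSquare_mul_iff h2 (pow_ne_zero _ h2) (Finset.prod_ne_zero_iff.2 fun j _ => hv0 j),
    isSquare_prod_iff h2 _ hv0]
  have e5 : (J.filter fun j => IsSquare (Q (v j))).card + (J.filter fun j => ¬ IsSquare (Q (v j))).card = J.card :=
    Finset.card_filter_add_card_filter_not _
  rw [← e5, Nat.even_add] at hJ
  tauto

end Sp

section Twelve

variable (F : Type*) [Field F]

/-- the natural module of `Ω₁₂⁺(F)` -/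
abbrev VV : Type _ := Fin 6 ⊕ Fin 6 → F

/-- the bilinear form on the natural module -/
def BB : LinearMap.BilinForm F (VV F) := polarBilin (plusForm 6 F)

/-- `Ω₁₂⁺(F)` as a set of endomorphisms -/
def Om : Set (Module.End F (VV F)) := {M | ∃ g ∈ E (plusForm 6 F), ((g : VV F ≃ₗ[F] VV F) : VV F →ₗ[F] VV F) = M}

variable {F}

theorem BB_apply (u v : VV F) : BB F u v = polar (plusForm 6 F) u v := rfl

theorem BB_symm (u v : VV F) : BB F u v = BB F v u := polar_comm _ _ _

theorem BB_nd (u : VV F) (h : ∀ v, BB F u v = 0) : u = 0 := nondeg_plusForm 6 F u h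

theorem nondegenerate (m : ℕ) : (polarBilin (plusForm m F)).Nondegenerate :=
  ⟨fun u h => nondeg_plusForm m F u h, fun u h => nondeg_plusForm m F u fun v => by rw [polar_comm]; exact h v⟩

theorem finrank_VV : finrank F (VV F) = 12 := by
  rw [Module.finrank_fintype_fun_eq_card, Fintype.card_sum, Fintype.card_fin]

theorem good [Finite F] : Good (plusForm 6 F) := good_of_finite (nondeg_plusForm 6 F) (by rw [finrank_VV]; omega)

theorem om_iso {M : Module.End F (VV F)} (hM : M ∈ Om F) (u v : VV F) : BB F (M u) (M v) = BB F u v := by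
  obtain ⟨g, hg, rfl⟩ := hM
  exact polar_map (E_le_O hg) u v

open Cfsg.Agent.H627.Co3 in
theorem signs [Finite F] (h2 : (2 : F) ≠ 0) (v : Basis (Fin 12) F (VV F)) (hv : ∀ i j, i ≠ j → BB F (v i) (v j) = 0)
    (J : Finset (Fin 12)) : sgn v J ∈ Om F ↔ Even J.card ∧ IsSquare (∏ j ∈ J, BB F (v j) (v j)) := by
  classical
  have hv0 : ∀ j, plusForm 6 F (v j) ≠ 0 := by
    intro j h0
    refine v.ne_zero j (BB_nd _ fun w => ?_)
    have key : (BB F (v j)) = 0 := by
      refine v.ext fun i => ?_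
      rw [LinearMap.zero_apply]
      by_cases h : j = i
      · subst h
        rw [BB_apply, Cfsg.Agent.LieClassical.OrthCore.polar_self', h0, mul_zero]
      · exact hv j i h
    rw [key, LinearMap.zero_apply]
  -- the sign change as an automorphism
  have hsq : ∀ x, sgn v J (sgn v J x) = x := by
    intro x
    have e : (sgn v J) ∘ₗ (sgn v J) = LinearMap.id := by
      refine v.ext fun i => ?_
      rw [LinearMap.comp_apply, LinearMap.id_apply, sgn, Basis.constr_basis]
      split_ifs with h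
      · rw [map_neg, Basis.constr_basis, if_pos h, neg_neg]
      · rw [Basis.constr_basis, if_neg h]
    exact LinearMap.congr_fun e x
  let g : VV F ≃ₗ[F] VV F := LinearEquiv.ofInvolutive (sgn v J) hsq
  have hg : ∀ x, g x = sgn v J x := fun _ => rfl
  have h1 : sgn v J ∈ Om F ↔ g ∈ E (plusForm 6 F) := by
    constructor
    · rintro ⟨g', hg', e⟩
      have : g = g' := LinearEquiv.toLinearMap_injective (by rw [e]; exact LinearMap.ext hg)
      rw [this]; exact hg'
    · intro h
      exact ⟨g, h, LinearMap.ext hg⟩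
  rw [h1]
  refine sgn_mem_iff h2 good (nondegenerate 6) (by rw [Fintype.card_sum, Fintype.card_fin]; omega) v hv hv0 J fun i => ⟨fun h => ?_, fun h => ?_⟩
  · rw [hg, sgn, Basis.constr_basis, if_pos h]
  · rw [hg, sgn, Basis.constr_basis, if_neg h]

end Twelve

end Cfsg.Agent.H249.Co3
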