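import Cfsg.Agent.H129.Tor
import Cfsg.Agent.H249.Co3.Ker7

/-!
# S1920, case B, `E₇(q)`, THETA12: the torus (helper249)

* `E0 F` : the subgroup of `GL` generated by the root subgroups of `A₁D₆`;
* `tor_mem` : a torus element `∏ h_i(c_i)` with `c_0` a square lies in `E0`.
-/

set_option autoImplicit false
set_option linter.unusedSectionVars false
set_option maxRecDepth 100000

namespace Cfsg.Agent.H249.Co3

open Cfsg Cfsg.Lie Cfsg.Lie.ChevalleyDatum
open Cfsg.Agent.ChevalleyStructure Cfsg.Agent.ChevalleyStructure.Elts Cfsg.Agent.ChevalleyStructure.Columns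
  Cfsg.Agent.ChevalleyStructure.StringMem Cfsg.Agent.Nodes.RGDChev
open Cfsg.Agent.H553.KKL
open Matrix

universe u

variable (F : Type u) [Field F]

theorem inE7 : InList chevE7 := slacE7.inList

/-- the group generated by the root subgroups of `A₁D₆` -/
def E0 : Subgroup (GL chevE7.Idx F) :=
  Subgroup.closure {g | ∃ r < 126, cor chevE7 r 0 % 2 = 0 ∧ ∃ a : F, g = xG inE7 r a}

variable {F}

theorem xG_mem_E0 {r : ℕ} (hr : r < 126) (h : cor chevE7 r 0 % 2 = 0) (a : F) : xG inE7 r a ∈ E0 F :=
  Subgroup.subset_closure ⟨r, hr, h, a, rfl⟩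

theorem nG_mem_E0 {r : ℕ} (hr : r < 126) (h : cor chevE7 r 0 % 2 = 0) (a : F) : nG inE7 r a ∈ E0 F := by
  rw [nG_def]
  obtain ⟨h1, h2⟩ := tab7a r hr h
  exact mul_mem (xG_mem_E0 hr h _) (mul_mem (xG_mem_E0 h1 h2 _) (xG_mem_E0 hr h _))

theorem hG_mem_E0 {r : ℕ} (hr : r < 126) (h : cor chevE7 r 0 % 2 = 0) (a : F) : hG inE7 r a ∈ E0 F := by
  rw [hG_def]
  exact mul_mem (nG_mem_E0 hr h _) (nG_mem_E0 hr h _)

/-- products of the simple `h_i`, `1 ≤ i < n` -/
theorem exists_tail (c : ℕ → F) (hc : ∀ i < 7, c i ≠ 0) (n : ℕ) (hn : n ≤ 7) :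
    ∃ t ∈ E0 F, (t : Matrix chevE7.Idx chevE7.Idx F) = Matrix.diagonal (Sum.elim (fun _ => (1 : F))
      (fun s : Fin chevE7.nroots => ∏ i ∈ (Finset.range n).erase 0, c i ^ chevE7.cartan i s)) := by
  induction n with
  | zero =>
    refine ⟨1, one_mem _, ?_⟩
    rw [Finset.range_zero, Finset.erase_empty, Units.val_one, ← Matrix.diagonal_one]
    congr 1
    funext j
    rcases j with j | j
    · rfl
    · rw [Sum.elim_inr, Finset.prod_empty]
  | succ n ih =>
    obtain ⟨t, ht, e⟩ := ih (by omega)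
    rcases Nat.eq_zero_or_pos n with rfl | hn0
    · refine ⟨t, ht, ?_⟩
      rw [e]
      rfl
    · have h1 := tab7b n (by omega) (by omega)
      refine ⟨t * hG inE7 (chevE7.simple n) (c n), mul_mem ht (hG_mem_E0 h1.1 h1.2 _), ?_⟩
      rw [Units.val_mul, e, coe_hG, hMat_eq inE7 h1.1 (hc n (by omega)), Matrix.diagonal_mul_diagonal]
      congr 1
      funext j
      rcases j with j | j
      · simp
      · rw [Sum.elim_inr, Sum.elim_inr, Sum.elim_inr, cartanR_simple inE7 (show n < chevE7.rank by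
          have : chevE7.rank = 7 := rfl
          omega)]
        have h2 : (Finset.range (n + 1)).erase 0 = insert n ((Finset.range n).erase 0) := by
          ext x
          simp only [Finset.mem_erase, Finset.mem_range, Finset.mem_insert]
          omega
        rw [h2, Finset.prod_insert (by simp), mul_comm]

/-- **A torus element with `c_0` a square lies in the group generated by the root subgroups of `A₁D₆`.** -/
theorem tor_mem {t : GL chevE7.Idx F} {c : ℕ → F} (hc : ∀ i < 7, c i ≠ 0)
    (ht : (t : Matrix chevE7.Idx chevE7.Idx F) = Matrix.diagonal (Sum.elim (fun _ => (1 : F))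
        (fun s : Fin chevE7.nroots => ∏ i ∈ Finset.range chevE7.rank, c i ^ chevE7.cartan i s)))
    (h0 : IsSquare (c 0)) : t ∈ E0 F := by
  obtain ⟨l, hl⟩ := h0
  have hl0 : l ≠ 0 := by
    rintro rfl
    exact hc 0 (by norm_num) (by rw [hl, mul_zero])
  obtain ⟨t', ht', e⟩ := exists_tail (fun i => c i * l ^ (-(cor chevE7 125 i))) (fun i hi => mul_ne_zero (hc i hi) (zpow_ne_zero _ hl0)) 7 le_rfl
  have hb : cor chevE7 125 0 % 2 = 0 := by rw [tab7c]; rfl
  have key : t = hG inE7 125 l * t' := by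
    apply Units.ext
    rw [Units.val_mul, e, ht, coe_hG, hMat_eq inE7 (show 125 < chevE7.nroots by decide) hl0, Matrix.diagonal_mul_diagonal]
    congr 1
    funext j
    rcases j with j | j
    · simp
    · rw [Sum.elim_inr, Sum.elim_inr, Sum.elim_inr]
      have hr : chevE7.rank = 7 := rfl
      have h1 : Cfsg.Agent.ChevalleyStructure.Strings.cartanR chevE7 125 j = ∑ i ∈ Finset.range 7, cor chevE7 125 i * chevE7.cartan i j := rfl
      rw [hr, h1, ← Finset.mul_prod_erase (Finset.range 7) _ (Finset.mem_range.2 (by norm_num : 0 < 7)),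
        ← Finset.add_sum_erase (Finset.range 7) _ (Finset.mem_range.2 (by norm_num : 0 < 7)), tab7c, zpow_add₀ hl0]
      have h2 : ∀ (S : Finset ℕ) (f : ℕ → ℤ), l ^ (∑ i ∈ S, f i) = ∏ i ∈ S, l ^ f i := by
        intro S f
        induction S using Finset.induction_on with
        | empty => simp
        | insert a S ha ih => rw [Finset.sum_insert ha, Finset.prod_insert ha, zpow_add₀ hl0, ih]
      rw [h2, mul_assoc, ← Finset.prod_mul_distrib, hl]
      congr 1
      · rw [_root_.zpow_mul]
        congr 1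
        rw [zpow_ofNat, pow_two]
      · refine Finset.prod_congr rfl fun i _ => ?_
        rw [mul_zpow, ← _root_.zpow_mul, mul_comm (c i ^ _), ← mul_assoc, ← zpow_add₀ hl0]
        have : cor chevE7 125 i * chevE7.cartan i j + -cor chevE7 125 i * chevE7.cartan i j = 0 := by ring
        rw [this, zpow_zero, one_mul]
  rw [key]
  exact mul_mem (hG_mem_E0 (by norm_num) hb _) ht'

end Cfsg.Agent.H249.Co3
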