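import Cfsg.Agent.H249.Co3.Tab7
import Cfsg.Agent.H249.Co3.Tor7
import Cfsg.Agent.H249.Co3.Asm

/-!
# S1920, case B, `E₇(q)`, THETA12: the relation (helper249)

`L₊` = `LP F` : the Lie algebra of `A₁D₆`; `th2`, `th6` : (twice) its representations of degrees 2 and 12;
`Rl7 z g a M` : `g` commutes with `z`, `th2 (g v) a = a th2 v`, `th6 (g v) M = M th6 v` on `L₊`, `M` a similitude.

* `inj7` : `th2`, `th6` are jointly injective on `L₊`;
* `rd7` : `RD z (Rl7 z)`.
-/

set_option autoImplicit false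
set_option linter.unusedSectionVars false
set_option maxRecDepth 100000

open QuadraticMap Module
open Cfsg.Agent.LieClassical.OrthCore Cfsg.Agent.LieClassical.OrthTrans Cfsg.Agent.LieClassical.OrthForms
  Cfsg.Agent.ClassicalGeometry.OrthAutBasic
  Cfsg.Agent.LieClassical.OrthFinite Cfsg.Agent.H887.SiegelMethod

namespace Cfsg.Agent.H249.Co3

open Cfsg Cfsg.Lie Cfsg.Lie.ChevalleyDatum
open Cfsg.Agent.ChevalleyStructure Cfsg.Agent.ChevalleyStructure.Elts Cfsg.Agent.ChevalleyStructure.XColumns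
open Cfsg.Agent.ChevalleyStructure.Columns (cor)
open Cfsg.Agent.H167.EX (rho)
open Cfsg.Agent.H736.Co3
open Matrix

universe u

/-! ### tables -/

def ex2 : List (List ℤ) := [[1, 0], [0, 0], [0, 0], [0, 0], [0, 0], [0, 0], [0, 0]]

theorem c2_1 : (rws2.all fun p => p.A.all fun a => (List.range 7).all fun k =>
    decide (exf ex2 k a.1 = chevE7.cartan k p.r + exf ex2 k a.2.1)) = true := by decide +kernel

theorem c2_2 : ((List.range 7).all fun i => (T2.H i).all fun a => Nat.beq a.1 a.2.1) = true := by decide +kernel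

theorem c2_3 : (rws2.all fun p => Nat.beq p.r 125 || (Nat.beq p.r 0 || p.A.isEmpty)) = true := by decide +kernel

theorem c2_4 : T2.E 125 = [(0, 1, 1)] := rfl

theorem c2_5 : T2.E 0 = [(1, 0, 1)] := rfl

theorem c6_7 : (rws6.all fun p => bif Nat.beq p.r 125 || Nat.beq p.r 0 then p.A.isEmpty else
    (match p.A with
      | [a, b] => Nat.beq b.1 (opn 6 a.2.1) && Nat.beq b.2.1 (opn 6 a.1) && decide (b.2.2 = -a.2.2) &&
        decide (a.2.2 * a.2.2 = 1) && Nat.blt a.1 12 && Nat.blt a.2.1 12 && !(Nat.beq a.1 a.2.1) &&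
        !(Nat.beq a.1 (opn 6 a.2.1))
      | _ => false)) = true := by decide +kernel

theorem c6_8 : ((List.range 7).all fun k => decide (exf ex6 k 0 + exf ex6 k 6 = if k = 0 then 1 else if k = 6 then -2 else 0)) = true := by
  decide +kernel

theorem c7_1 : T2.In 125 = true ∧ T2.In 0 = true := by decide +kernel

/-- the mask -/
theorem In_iff {r : ℕ} (hr : r < 126) : T6.In r = true ↔ cor chevE7 r 0 % 2 = 0 := by
  have h := of_decide_eq_true (List.all_eq_true.1 In_iff6 r (List.mem_range.2 hr))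
  rw [h, decide_eq_true_eq]

/-! ### the representations -/

section

variable (F : Type u) [Field F]

/-- `L₊` -/
abbrev LP : Submodule F (chevE7.Idx → F) := Lp T6 chevE7 F

/-- twice the representation of degree 12 -/
noncomputable def th6 : (chevE7.Idx → F) →ₗ[F] M12 F := Th T6 chevE7 F

/-- the `2 × 2` matrices -/
noncomputable def rx : Matrix (Fin 1 ⊕ Fin 1) (Fin 1 ⊕ Fin 1) F ≃ₐ[F] Matrix (Fin 2) (Fin 2) F :=
  Matrix.reindexAlgEquiv F F finSumFinEquiv

/-- twice the representation of degree 2 -/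
noncomputable def th2 : (chevE7.Idx → F) →ₗ[F] Matrix (Fin 2) (Fin 2) F :=
  (rx F).toLinearMap ∘ₗ (Th T2 chevE7 F : (chevE7.Idx → F) →ₗ[F] Matrix (Fin 1 ⊕ Fin 1) (Fin 1 ⊕ Fin 1) F)

/-- the root matrices of `D₆` -/
noncomputable def E6 (r : ℕ) : M12 F := sm T6.m F (T6.E r)

/-- the root matrices of `A₁` -/
noncomputable def E2 (r : ℕ) : Matrix (Fin 2) (Fin 2) F :=
  rx F (sm T2.m F (T2.E r) : Matrix (Fin 1 ⊕ Fin 1) (Fin 1 ⊕ Fin 1) F)

theorem th2_apply (v : chevE7.Idx → F) : th2 F v = rx F (Th T2 chevE7 F v : Matrix (Fin 1 ⊕ Fin 1) (Fin 1 ⊕ Fin 1) F) := rfl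

theorem Lp_eq : Lp T2 chevE7 F = LP F := rfl

variable {F}

/-- **the relation** -/
structure Rl7 (z g : ↥(chevE7.group F)) (a : Matrix (Fin 2) (Fin 2) F) (M : M12 F) : Prop where
  cz : g * z = z * g
  det : a.det ≠ 0
  sim : ∃ μ : F, μ ≠ 0 ∧ (∀ v, plusForm 6 F (M.mulVec v) = μ * plusForm 6 F v) ∧ IsSquare (μ * a.det)
  d2 : ∀ v ∈ LP F, th2 F (((g : GL chevE7.Idx F) : Matrix chevE7.Idx chevE7.Idx F) *ᵥ v) * a = a * th2 F v
  d6 : ∀ v ∈ LP F, th6 F (((g : GL chevE7.Idx F) : Matrix chevE7.Idx chevE7.Idx F) *ᵥ v) * M = M * th6 F v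

end

/-! ### joint injectivity -/

section

variable {F : Type u} [Field F]

theorem Th_ent {T : Tb} [NeZero T.m] (O : T.Ok chevE7) {v : chevE7.Idx → F} {i j : ℕ} (hi : i < T.m + T.m) (hj : j < T.m + T.m) :
    Th T chevE7 F v (ix T.m i) (ix T.m j) = (∑ k : Fin chevE7.rank, v (Sum.inl k) * (ent (T.H k) i j : F)) +
      ∑ s : Fin chevE7.nroots, v (Sum.inr s) * (2 * (ent (T.E s) i j : F)) := by
  rw [Th_apply, Fintype.sum_sum_type, Matrix.add_apply, Matrix.sum_apply, Matrix.sum_apply]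
  congr 1
  · refine Finset.sum_congr rfl fun k _ => ?_
    rw [Matrix.smul_apply, smul_eq_mul]
    show _ * sm T.m F (T.H k) _ _ = _
    rw [sm_apply_ix F (O.wfH k) hi hj]
  · refine Finset.sum_congr rfl fun s _ => ?_
    rw [Matrix.smul_apply, smul_eq_mul]
    show _ * ((2 : F) • sm T.m F (T.E s)) _ _ = _
    rw [Matrix.smul_apply, smul_eq_mul, sm_apply_ix F (O.wfE s) hi hj]

theorem iso_zero {T : Tb} [NeZero T.m] (O : T.Ok chevE7) (h2 : (2 : F) ≠ 0) {v : chevE7.Idx → F} (hv : v ∈ Lp T chevE7 F)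
    (h : Th T chevE7 F v = 0) {rws : List Tb.Rw} (hsp : ∀ r, T.In r = true → ∃ p ∈ rws, p.r = r ∧ T.E r = p.A)
    {r : Fin chevE7.nroots} {p : Tb.Rw} (_hp : p ∈ rws) (hpr : p.r = r) (hpE : T.E r = p.A)
    (hc : (p.A.any fun a => (decide (ent p.A a.1 a.2.1 = 1) ||
      decide (ent p.A a.1 a.2.1 = -1)) && (rws.all fun q => Nat.beq q.r p.r || decide (ent q.A a.1 a.2.1 = 0)) &&
      (List.range 7).all fun k => decide (ent (T.H k) a.1 a.2.1 = 0)) = true) : v (Sum.inr r) = 0 := by
  obtain ⟨a, ha, hc⟩ := List.any_eq_true.1 hc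
  rw [Bool.and_eq_true, Bool.and_eq_true, Bool.or_eq_true, decide_eq_true_eq, decide_eq_true_eq] at hc
  obtain ⟨⟨h1, h3⟩, h4⟩ := hc
  have hw := wf_iff.1 (O.wfE r) a (by rw [hpE]; exact ha)
  have h5 := Th_ent (F := F) (v := v) O hw.1 hw.2
  rw [h, Matrix.zero_apply, Finset.sum_eq_zero, zero_add, Finset.sum_eq_single r] at h5
  · rcases h1 with h1 | h1
    · rw [hpE, h1, Int.cast_one, mul_one] at h5
      exact (mul_eq_zero.1 h5.symm).resolve_right h2
    · rw [hpE, h1, Int.cast_neg, Int.cast_one, mul_neg_one, mul_neg, zero_eq_neg] at h5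
      exact (mul_eq_zero.1 h5).resolve_right h2
  · intro s _ hs
    cases hins : T.In s
    · rw [hv s hins, zero_mul]
    · obtain ⟨q, hq, hqr, hqE⟩ := hsp s hins
      have h6 := List.all_eq_true.1 h3 q hq
      rw [Bool.or_eq_true, decide_eq_true_eq] at h6
      have h7 : ent q.A a.1 a.2.1 = 0 := h6.resolve_left fun h8 => hs (Fin.ext (by
        rw [← hqr, ← hpr]; exact Nat.eq_of_beq_eq_true h8))
      rw [hqE, h7, Int.cast_zero, mul_zero, mul_zero]
  · intro h; exact absurd (Finset.mem_univ _) h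
  · intro k _
    have h6 := of_decide_eq_true (List.all_eq_true.1 h4 k (List.mem_range.2 k.2))
    rw [h6, Int.cast_zero, mul_zero]

/-- **joint injectivity** -/
theorem inj7 (h2 : (2 : F) ≠ 0) {v : chevE7.Idx → F} (hv : v ∈ LP F) (hA : th2 F v = 0) (hD : th6 F v = 0) : v = 0 := by
  have hA' : Th T2 chevE7 F v = 0 := (rx F).injective (by rw [← th2_apply, hA]; exact (map_zero (rx F)).symm)
  have hD' : Th T6 chevE7 F v = 0 := hD
  have hr : ∀ r : Fin chevE7.nroots, v (Sum.inr r) = 0 := by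
    intro r
    cases hin : T6.In r
    · exact hv r hin
    · by_cases h0 : Nat.beq r 125 || Nat.beq r 0
      · obtain ⟨p, hp, hpr, hpE⟩ := spec2 (r := r) hin
        have h3 := List.all_eq_true.1 cj_2 p hp
        rw [hpr, h0, Bool.not_true, Bool.false_or, ← hpr] at h3
        exact iso_zero T2_ok h2 (show v ∈ Lp T2 chevE7 F from hv) hA' (fun r hr => spec2 hr) hp hpr hpE h3
      · obtain ⟨p, hp, hpr, hpE⟩ := spec6 hin
        have h3 := List.all_eq_true.1 cj_1 p hp
        rw [hpr] at h3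
        rw [Bool.or_eq_true, not_or] at h0
        rw [Bool.or_eq_true, Bool.or_eq_true] at h3
        have h4 := (h3.resolve_left h0.1).resolve_left h0.2
        rw [← hpr] at h4
        exact iso_zero T6_ok h2 hv hD' (fun r hr => spec6 hr) hp hpr hpE h4
  have h4 : (4 : F) ≠ 0 := by
    rw [show (4 : F) = 2 * 2 by norm_num]
    exact mul_ne_zero h2 h2
  have h5 : ∀ i < 6, ∑ k : Fin 7, v (Sum.inl k) * (ent (T6.H k) i i : F) = 0 := by
    intro i hi
    have hi' : i < T6.m + T6.m := by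
      show i < 6 + 6
      omega
    have h6 := Th_ent (F := F) (v := v) T6_ok hi' hi'
    rw [hD', Matrix.zero_apply, add_comm, Finset.sum_eq_zero, zero_add] at h6
    · exact h6.symm
    · intro s _
      rw [hr, zero_mul]
  have h7 : ∑ k : Fin 7, v (Sum.inl k) * (ent (T2.H k) 0 0 : F) = 0 := by
    have hi' : 0 < T2.m + T2.m := by
      show 0 < 1 + 1
      omega
    have h6 := Th_ent (F := F) (v := v) T2_ok hi' hi'
    rw [hA', Matrix.zero_apply, add_comm, Finset.sum_eq_zero, zero_add] at h6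
    · exact h6.symm
    · intro s _
      rw [hr, zero_mul]
  have hl : ∀ l : Fin 7, v (Sum.inl l) = 0 := by
    intro l
    have e : ∑ k : Fin 7, v (Sum.inl k) * ((((List.range 6).map fun i => exf mm7 l i * ent (T6.H k) i i).sum +
        exf mm7 l 6 * ent (T2.H k) 0 0 : ℤ) : F) = 0 := by
      have e1 : ∀ k : Fin 7, v (Sum.inl k) * ((((List.range 6).map fun i => exf mm7 l i * ent (T6.H k) i i).sum +
          exf mm7 l 6 * ent (T2.H k) 0 0 : ℤ) : F) =
          (∑ i : Fin 6, ((exf mm7 l i : ℤ) : F) * (v (Sum.inl k) * ((ent (T6.H k) i i : ℤ) : F))) +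
            ((exf mm7 l 6 : ℤ) : F) * (v (Sum.inl k) * ((ent (T2.H k) 0 0 : ℤ) : F)) := by
        intro k
        rw [sum_list_range]
        push_cast
        rw [mul_add, Finset.mul_sum]
        congr 1
        · exact Finset.sum_congr rfl fun i _ => by ring
        · ring
      rw [Finset.sum_congr rfl fun k _ => e1 k, Finset.sum_add_distrib, Finset.sum_comm, ← Finset.mul_sum, h7, mul_zero,
        add_zero]
      refine Finset.sum_eq_zero fun i _ => ?_
      rw [← Finset.mul_sum, h5 i i.2, mul_zero]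
    have e2 : ∀ k : Fin 7, ((List.range 6).map fun i => exf mm7 l i * ent (T6.H k) i i).sum +
        exf mm7 l 6 * ent (T2.H k) 0 0 = if (l : ℕ) = k then 4 else 0 := fun k =>
      of_decide_eq_true (List.all_eq_true.1 (List.all_eq_true.1 cj_3 l (List.mem_range.2 l.2)) k (List.mem_range.2 k.2))
    rw [Finset.sum_congr rfl fun k _ => by rw [e2 k], Finset.sum_eq_single l] at e
    · rw [if_pos rfl] at e
      refine (mul_eq_zero.1 e).resolve_right ?_
      push_cast
      exact h4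
    · intro k _ hk
      rw [if_neg (fun h => hk (Fin.ext h.symm)), Int.cast_zero, mul_zero]
    · intro h6
      exact absurd (Finset.mem_univ _) h6
  funext j
  rcases j with j | j
  · exact hl j
  · exact hr j

end

end Cfsg.Agent.H249.Co3
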