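import Cfsg.Agent.H249.Co3.RelRD

/-!
# S1920, case B, `E₇(q)`, THETA12: the torus elements are represented (helper249)
-/

set_option autoImplicit false
set_option linter.unusedSectionVars false
set_option maxRecDepth 100000

open QuadraticMap Module
open Cfsg.Agent.LieClassical Cfsg.Agent.LieClassical.OrthCore Cfsg.Agent.LieClassical.OrthForms

namespace Cfsg.Agent.H249.Co3

open Cfsg Cfsg.Lie Cfsg.Lie.ChevalleyDatum
open Cfsg.Agent.ChevalleyStructure Cfsg.Agent.ChevalleyStructure.Elts Cfsg.Agent.ChevalleyStructure.XColumns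
open Cfsg.Agent.ChevalleyStructure.Columns (cor)
open Cfsg.Agent.H736.Co3
open Matrix

universe u

section

variable {m : ℕ} [NeZero m] {F : Type u} [Field F]

theorem sm_dg {L : Sp} {d : Fin m ⊕ Fin m → F} {χ : F} (h : ∀ a ∈ L, χ * d (ix m a.2.1) = d (ix m a.1)) :
    χ • (sm m F L * Matrix.diagonal d) = Matrix.diagonal d * sm m F L := by
  induction L with
  | nil => rw [sm_nil, zero_mul, mul_zero, smul_zero]
  | cons a L ih =>
    rw [sm_cons, add_mul, mul_add, smul_add, ih fun b hb => h b (List.mem_cons_of_mem _ hb)]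
    congr 1
    ext i j
    rw [Matrix.smul_apply, Matrix.mul_diagonal, Matrix.diagonal_mul, Matrix.single_apply, smul_eq_mul]
    split_ifs with h1
    · rw [← h1.1, ← h1.2, ← h a List.mem_cons_self]; ring
    · rw [zero_mul, mul_zero, mul_zero]

end

section

variable {F : Type u} [Field F]

/-- intertwining for the elements of the torus -/
theorem tor_th {T : Tb} [NeZero T.m] (O : T.Ok chevE7) {ex : List (List ℤ)}
    (dE : ∀ r, T.In r = true → ∀ a ∈ T.E r, ∀ k < chevE7.rank, exf ex k a.1 = chevE7.cartan k r + exf ex k a.2.1)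
    (dH : ∀ i < chevE7.rank, ∀ a ∈ T.H i, a.1 = a.2.1) {t : Matrix chevE7.Idx chevE7.Idx F} {c : ℕ → F}
    (hc : ∀ i < chevE7.rank, c i ≠ 0)
    (ht : t = Matrix.diagonal (Sum.elim (fun _ => (1 : F))
      (fun s : Fin chevE7.nroots => ∏ i ∈ Finset.range chevE7.rank, c i ^ chevE7.cartan i s)))
    {v : chevE7.Idx → F} (hv : v ∈ Lp T chevE7 F) :
    Th T chevE7 F (t *ᵥ v) * Matrix.diagonal (fun i => ∏ k ∈ Finset.range chevE7.rank, c k ^ exf ex k (nx T.m i)) =
      Matrix.diagonal (fun i => ∏ k ∈ Finset.range chevE7.rank, c k ^ exf ex k (nx T.m i)) * Th T chevE7 F v := by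
  set d : Fin T.m ⊕ Fin T.m → F := fun i => ∏ k ∈ Finset.range chevE7.rank, c k ^ exf ex k (nx T.m i) with hd
  set χ : ℕ → F := fun s => ∏ i ∈ Finset.range chevE7.rank, c i ^ chevE7.cartan i s with hχ
  refine Lp_ind (P := fun v => Th T chevE7 F (t *ᵥ v) * Matrix.diagonal d = Matrix.diagonal d * Th T chevE7 F v)
    ?_ ?_ ?_ ?_ ?_ hv
  · rw [Matrix.mulVec_zero, map_zero, zero_mul, mul_zero]
  · intro v w h1 h3
    rw [Matrix.mulVec_add, map_add, map_add, add_mul, mul_add, h1, h3]
  · intro b v h1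
    rw [Matrix.mulVec_smul, map_smul, map_smul, smul_mul_assoc, mul_smul_comm, h1]
  · intro i hi
    rw [diag_hv (χ := fun s => χ s) ht, Th_hv T chevE7 F hi]
    have h1 := sm_dg (m := T.m) (F := F) (L := T.H i) (d := d) (χ := 1) (fun a ha => by rw [one_mul, dH i hi a ha])
    rwa [one_smul] at h1
  · intro s hs hsi
    have h1 := sm_dg (m := T.m) (F := F) (L := T.E s) (d := d) (χ := χ s) (fun a ha => by
      have hw := wf_iff.1 (O.wfE s) a ha
      simp only [hd, hχ]
      rw [nx_ix hw.1, nx_ix hw.2, ← Finset.prod_mul_distrib]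
      refine Finset.prod_congr rfl fun k hk => ?_
      rw [dE s hsi a ha k (Finset.mem_range.1 hk), zpow_add₀ (hc k (Finset.mem_range.1 hk))])
    rw [diag_ev (χ := χ) ht, map_smul, Th_ev T chevE7 F hs, mul_smul_comm, ← h1, smul_mul_assoc, smul_mul_assoc, smul_comm]

theorem rx_diagonal (d : Fin 1 ⊕ Fin 1 → F) : rx F (Matrix.diagonal d) = Matrix.diagonal (d ∘ finSumFinEquiv.symm) := by
  ext i j
  show Matrix.diagonal d (finSumFinEquiv.symm i) (finSumFinEquiv.symm j) = _
  rw [Matrix.diagonal_apply, Matrix.diagonal_apply]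
  by_cases h : i = j
  · rw [if_pos h, if_pos (by rw [h])]; rfl
  · rw [if_neg h, if_neg fun h1 => h (finSumFinEquiv.symm.injective h1)]

/-- **the elements of the torus** -/
theorem tor7 {z t : ↥(chevE7.group F)} {c : ℕ → F} (hc : ∀ i < 7, c i ≠ 0)
    (ht : ((t : GL chevE7.Idx F) : Matrix chevE7.Idx chevE7.Idx F) = Matrix.diagonal (Sum.elim (fun _ => (1 : F))
      (fun s : Fin chevE7.nroots => ∏ i ∈ Finset.range chevE7.rank, c i ^ chevE7.cartan i s))) (htz : t * z = z * t) :
    ∃ a M, Rl7 z t a M ∧ a.det = c 0 := by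
  have hc' : ∀ i < chevE7.rank, c i ≠ 0 := hc
  let d2 : Fin 1 ⊕ Fin 1 → F := fun i => ∏ k ∈ Finset.range 7, c k ^ exf ex2 k (nx 1 i)
  let d6 : Fin 6 ⊕ Fin 6 → F := fun i => ∏ k ∈ Finset.range 7, c k ^ exf ex6 k (nx 6 i)
  have e0 : d2 (Sum.inl 0) = c 0 := by
    show ∏ k ∈ Finset.range 7, c k ^ exf ex2 k 0 = c 0
    rw [Finset.prod_eq_single 0]
    · exact zpow_one _
    · intro k hk hk0
      have h1 : exf ex2 k 0 = 0 := by
        have hk := Finset.mem_range.1 hk
        interval_cases k <;> first | exact absurd rfl hk0 | rfl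
      rw [h1, zpow_zero]
    · intro h
      exact absurd (Finset.mem_range.2 (by norm_num)) h
  have e1 : d2 (Sum.inr 0) = 1 := by
    show ∏ k ∈ Finset.range 7, c k ^ exf ex2 k 1 = 1
    refine Finset.prod_eq_one fun k hk => ?_
    have h1 : exf ex2 k 1 = 0 := by
      have hk := Finset.mem_range.1 hk
      interval_cases k <;> rfl
    rw [h1, zpow_zero]
  have hdet : (rx F (Matrix.diagonal d2)).det = c 0 := by
    rw [rx_diagonal, Matrix.det_diagonal, Fin.prod_univ_two]
    have h0 : (finSumFinEquiv.symm (0 : Fin 2) : Fin 1 ⊕ Fin 1) = Sum.inl 0 := by decide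
    have h1 : (finSumFinEquiv.symm (1 : Fin 2) : Fin 1 ⊕ Fin 1) = Sum.inr 0 := by decide
    rw [Function.comp_apply, Function.comp_apply, h0, h1, e0, e1, mul_one]
  have hmu : ∏ k ∈ Finset.range 7, c k ^ (exf ex6 k 0 + exf ex6 k 6) = c 0 * c 6 ^ (-2 : ℤ) := by
    have h1 : ∀ k ∈ Finset.range 7, c k ^ (exf ex6 k 0 + exf ex6 k 6) =
        (if k = 0 then c 0 else 1) * (if k = 6 then c 6 ^ (-2 : ℤ) else 1) := by
      intro k hk
      have h3 := of_decide_eq_true (List.all_eq_true.1 c6_8 k (List.mem_range.2 (Finset.mem_range.1 hk)))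
      rw [h3]
      by_cases h0 : k = 0
      · subst h0
        rw [if_pos rfl, if_pos rfl, if_neg (by norm_num), zpow_one, mul_one]
      · rw [if_neg h0, if_neg h0, one_mul]
        by_cases h6 : k = 6
        · subst h6
          rw [if_pos rfl, if_pos rfl]
        · rw [if_neg h6, if_neg h6, zpow_zero]
    rw [Finset.prod_congr rfl h1, Finset.prod_mul_distrib, Finset.prod_ite_eq', Finset.prod_ite_eq',
      if_pos (Finset.mem_range.2 (by norm_num)), if_pos (Finset.mem_range.2 (by norm_num))]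
  have hc0 := hc 0 (by norm_num)
  have hc6 := hc 6 (by norm_num)
  refine ⟨rx F (Matrix.diagonal d2), Matrix.diagonal d6, ⟨htz, ?_, ?_, ?_, ?_⟩, hdet⟩
  · rw [hdet]; exact hc0
  · refine ⟨c 0 * c 6 ^ (-2 : ℤ), mul_ne_zero hc0 (zpow_ne_zero _ hc6), fun v => ?_, ?_⟩
    · rw [coe_plusForm, quadFormPlus_apply, quadFormPlus_apply, Finset.mul_sum]
      refine Finset.sum_congr rfl fun i _ => ?_
      rw [Matrix.mulVec_diagonal, Matrix.mulVec_diagonal]
      have h1 : d6 (Sum.inl i) * d6 (Sum.inr i) = c 0 * c 6 ^ (-2 : ℤ) := by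
        rw [← hmu]
        show (∏ k ∈ Finset.range 7, c k ^ exf ex6 k (nx 6 (Sum.inl i))) *
          (∏ k ∈ Finset.range 7, c k ^ exf ex6 k (nx 6 (Sum.inr i))) = _
        rw [← Finset.prod_mul_distrib]
        refine Finset.prod_congr rfl fun k hk => ?_
        have h3 := T6_ok2.mu k (Finset.mem_range.1 hk) i i.2
        rw [← zpow_add₀ (hc k (Finset.mem_range.1 hk))]
        congr 1
      linear_combination (v (Sum.inl i) * v (Sum.inr i)) * h1
    · rw [hdet]
      refine ⟨c 0 / c 6, ?_⟩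
      have h3 : c 6 ^ (-2 : ℤ) = ((c 6) ^ 2)⁻¹ := by
        rw [_root_.zpow_neg, zpow_ofNat]
      rw [h3]
      field_simp
  · intro v hv
    have h1 := tor_th T2_ok (ex := ex2) (c := c)
      (fun r hr a ha k hk => by
        obtain ⟨p, hp, rfl, e⟩ := spec2 hr
        rw [e] at ha
        exact of_decide_eq_true (List.all_eq_true.1 (List.all_eq_true.1 (List.all_eq_true.1 c2_1 p hp) a ha) k
          (List.mem_range.2 hk)))
      (fun i hi a ha => Nat.eq_of_beq_eq_true (List.all_eq_true.1 (List.all_eq_true.1 c2_2 i (List.mem_range.2 hi)) a ha))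
      hc' ht (v := v) hv
    have h3 := congrArg (rx F) h1
    exact (map_mul (rx F) _ _).symm.trans (h3.trans (map_mul (rx F) _ _))
  · intro v hv
    exact tor_th T6_ok (ex := ex6) (c := c) T6_ok2.dE T6_ok2.dH hc' ht (v := v) hv

end

end Cfsg.Agent.H249.Co3
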