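import Cfsg.Agent.H249.Co3.Om

/-!
# S1920, case B, `E₇(q)`, THETA12: commutants and similitudes (helper249)

* `scalar_of_comm` : a matrix commuting with all `E_{l k} - E_{k* l*}` is scalar;
* `scalar_of_comm2` : the same for `2 × 2`;
* `E_conj_sim` : similitudes normalise `E Q`.
-/

set_option autoImplicit false
set_option linter.unusedSectionVars false

open QuadraticMap Module
open Cfsg.Agent.LieClassical.OrthCore Cfsg.Agent.LieClassical.OrthTrans Cfsg.Agent.LieClassical.OrthForms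
  Cfsg.Agent.ClassicalGeometry.OrthAutBasic
  Cfsg.Agent.LieClassical.OrthFinite Cfsg.Agent.H887.SiegelMethod

namespace Cfsg.Agent.H249.Co3

section Comm

variable {m : ℕ} {F : Type*} [Field F]

/-- the root vector of the orthogonal Lie algebra -/
def EE (F : Type*) [Field F] {m : ℕ} (k l : Fin m ⊕ Fin m) : Matrix (Fin m ⊕ Fin m) (Fin m ⊕ Fin m) F :=
  Matrix.single l k 1 - Matrix.single k.swap l.swap 1

theorem swap_ne_swap {k l : Fin m ⊕ Fin m} (h : l ≠ k) : l.swap ≠ k.swap := by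
  intro h'
  apply h
  rw [← Sum.swap_swap l, ← Sum.swap_swap k, h']

/-- the basic relation -/
theorem comm_EE {X : Matrix (Fin m ⊕ Fin m) (Fin m ⊕ Fin m) F} {k l : Fin m ⊕ Fin m} (hlk : l ≠ k) (hlk' : l ≠ k.swap)
    (h : X * EE F k l = EE F k l * X) (i : Fin m ⊕ Fin m) (hi : i ≠ k.swap) : X i l = if i = l then X k k else 0 := by
  have hkl' : k ≠ l.swap := by
    intro h'
    apply hlk'
    rw [h', Sum.swap_swap]
  have h1 := congrFun (congrFun h i) k
  rw [EE, mul_sub, sub_mul, Matrix.sub_apply, Matrix.sub_apply, Matrix.mul_single_apply_same, mul_one,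
    Matrix.mul_single_apply_of_ne (hbj := hkl'), sub_zero] at h1
  rw [h1]
  have h2 : (Matrix.single k.swap l.swap (1 : F) * X) i k = 0 := Matrix.single_mul_apply_of_ne (h := hi) ..
  rw [h2, sub_zero]
  by_cases hil : i = l
  · subst hil
    rw [if_pos rfl, Matrix.single_mul_apply_same, one_mul]
  · rw [if_neg hil]
    exact Matrix.single_mul_apply_of_ne (h := hil) ..

/-- **The commutant of the orthogonal Lie algebra.** -/
theorem scalar_of_comm (hm : 2 ≤ m) {X : Matrix (Fin m ⊕ Fin m) (Fin m ⊕ Fin m) F}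
    (h : ∀ k l : Fin m ⊕ Fin m, l ≠ k → l ≠ k.swap → X * EE F k l = EE F k l * X) : ∃ c : F, X = c • 1 := by
  classical
  have hcard : 4 ≤ Fintype.card (Fin m ⊕ Fin m) := by rw [Fintype.card_sum, Fintype.card_fin]; omega
  have hex : ∀ a b c : Fin m ⊕ Fin m, ∃ k, k ≠ a ∧ k ≠ b ∧ k ≠ c := by
    intro a b c
    by_contra hc
    push Not at hc
    have h1 : (Finset.univ : Finset (Fin m ⊕ Fin m)) ⊆ {a, b, c} := by
      intro k _
      simp only [Finset.mem_insert, Finset.mem_singleton]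
      by_contra h'
      push Not at h'
      exact h'.2.2 (hc k h'.1 h'.2.1)
    have h2 := (Finset.card_le_card h1).trans (Finset.card_le_three)
    rw [Finset.card_univ] at h2
    omega
  have hoff : ∀ i l, i ≠ l → X i l = 0 := by
    intro i l hil
    obtain ⟨k, h1, h2, h3⟩ := hex l l.swap i.swap
    have h4 := comm_EE (Ne.symm h1) (fun h' => h2 (by rw [h', Sum.swap_swap])) (h k l (Ne.symm h1)
      (fun h' => h2 (by rw [h', Sum.swap_swap]))) i (fun h' => h3 (by rw [h', Sum.swap_swap]))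
    rw [h4, if_neg hil]
  have hdg : ∀ k l, l ≠ k → l ≠ k.swap → X l l = X k k := by
    intro k l h1 h2
    have h4 := comm_EE h1 h2 (h k l h1 h2) l h2
    rw [h4, if_pos rfl]
  have hdg' : ∀ k l, X l l = X k k := by
    intro k l
    by_cases h1 : l = k
    · rw [h1]
    by_cases h2 : l = k.swap
    · obtain ⟨j, h3, h4, -⟩ := hex k k.swap k
      rw [← hdg k j h3 h4]
      refine hdg j l (fun h' => h4 (h'.symm.trans h2)) (fun h' => ?_)
      apply h3
      rw [← Sum.swap_swap j, ← h', h2, Sum.swap_swap]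
    · exact hdg k l h1 h2
  have i0 : Fin m ⊕ Fin m := Sum.inl ⟨0, by omega⟩
  refine ⟨X i0 i0, ?_⟩
  ext i j
  rw [Matrix.smul_apply, Matrix.one_apply]
  by_cases hij : i = j
  · subst hij
    rw [if_pos rfl, smul_eq_mul, mul_one]
    exact hdg' i0 i
  · rw [if_neg hij, smul_zero]
    exact hoff i j hij

/-- the commutant of `sl₂` -/
theorem scalar_of_comm2 {X : Matrix (Fin 2) (Fin 2) F} (h1 : X * Matrix.single 0 1 1 = Matrix.single 0 1 1 * X)
    (h2 : X * Matrix.single 1 0 1 = Matrix.single 1 0 1 * X) : ∃ c : F, X = c • 1 := by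
  refine ⟨X 0 0, ?_⟩
  have a1 : X 1 0 = 0 := by
    have := congrFun (congrFun h1 0) 0
    simpa [Matrix.mul_apply, Matrix.single_apply] using this.symm
  have a2 : X 0 0 = X 1 1 := by
    have := congrFun (congrFun h1 0) 1
    simpa [Matrix.mul_apply, Matrix.single_apply] using this
  have a3 : X 0 1 = 0 := by
    have := congrFun (congrFun h2 0) 0
    simpa [Matrix.mul_apply, Matrix.single_apply] using this
  ext i j
  rw [Matrix.smul_apply, smul_eq_mul]
  fin_cases i <;> fin_cases j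
  · show X 0 0 = X 0 0 * (1 : Matrix (Fin 2) (Fin 2) F) 0 0
    rw [Matrix.one_apply_eq, mul_one]
  · show X 0 1 = X 0 0 * (1 : Matrix (Fin 2) (Fin 2) F) 0 1
    rw [Matrix.one_apply_ne (by decide), mul_zero, a3]
  · show X 1 0 = X 0 0 * (1 : Matrix (Fin 2) (Fin 2) F) 1 0
    rw [Matrix.one_apply_ne (by decide), mul_zero, a1]
  · show X 1 1 = X 0 0 * (1 : Matrix (Fin 2) (Fin 2) F) 1 1
    rw [Matrix.one_apply_eq, mul_one, a2]

end Comm

section Sim

variable {F V : Type*} [Field F] [AddCommGroup V] [Module F V] {Q : QuadraticForm F V}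

theorem polar_sim {S : V ≃ₗ[F] V} {μ : F} (hS : ∀ v, Q (S v) = μ * Q v) (u v : V) : polar Q (S u) (S v) = μ * polar Q u v := by
  unfold QuadraticMap.polar
  rw [← map_add, hS, hS, hS]; ring

theorem T_conj_sim {S : V ≃ₗ[F] V} {μ : F} (hμ : μ ≠ 0) (hS : ∀ v, Q (S v) = μ * Q v) {u w : V} (hu : Q u = 0)
    (hw : polar Q u w = 0) : S * T Q u w * S⁻¹ = T Q (S u) (μ⁻¹ • S w) := by
  have h1 : Q (S u) = 0 := by rw [hS, hu, mul_zero]
  have h2 : polar Q (S u) (μ⁻¹ • S w) = 0 := by rw [polar_smul_right, polar_sim hS, hw, mul_zero, smul_zero]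
  ext v
  obtain ⟨x, rfl⟩ := S.surjective v
  have e1 : (S * T Q u w * S⁻¹) (S x) = S (T Q u w x) := by
    show S (T Q u w (S.symm (S x))) = _
    rw [LinearEquiv.symm_apply_apply]
  rw [e1, T_apply hu hw, T_apply h1 h2, map_sub, map_sub, map_add, map_smul, map_smul, map_smul, polar_sim hS,
    polar_smul_left, polar_sim hS, QuadraticMap.map_smul, hS, smul_smul, smul_eq_mul, smul_eq_mul]
  congr 1
  · congr 1
    · congr 2
      field_simp
    · congr 1
      field_simp
  · congr 1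
    field_simp

/-- **Similitudes normalise `E Q`.** -/
theorem E_conj_sim {S : V ≃ₗ[F] V} {μ : F} (hμ : μ ≠ 0) (hS : ∀ v, Q (S v) = μ * Q v) {g : V ≃ₗ[F] V} (hg : g ∈ E Q) :
    S * g * S⁻¹ ∈ E Q := by
  unfold E at hg
  induction hg using Subgroup.closure_induction with
  | mem x hx =>
    obtain ⟨u, w, hu, hw, rfl⟩ := hx
    rw [← T_eq hu hw, T_conj_sim hμ hS hu hw]
    exact T_mem_E _ _
  | one => rw [mul_one, mul_inv_cancel]; exact (E Q).one_mem
  | mul x y _ _ hx hy =>
    have : S * (x * y) * S⁻¹ = (S * x * S⁻¹) * (S * y * S⁻¹) := by group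
    rw [this]
    exact (E Q).mul_mem hx hy
  | inv x _ hx =>
    have : S * x⁻¹ * S⁻¹ = (S * x * S⁻¹)⁻¹ := by group
    rw [this]
    exact (E Q).inv_mem hx

end Sim

end Cfsg.Agent.H249.Co3
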